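import Cfsg.Agent.Lib.Knapp.Perm
import Cfsg.Agent.Lib.Subnormal.Basic

/-!
# Relational API: subgroups inducing the alternating group on an invariant set
-/

set_option autoImplicit false

namespace Cfsg.Agent.Lib.Knapp.Act

open Equiv Subgroup MulAction
open Cfsg.Agent.Lib.Knapp.Perm Cfsg.Agent.Lib.Subnormal.Basic
open scoped Nat Pointwise

variable {G Ω : Type*} [Group G] [MulAction G Ω]

/-- `N` preserves the set `P`. -/
def Pres (N : Subgroup G) (P : Set Ω) : Prop := ∀ g ∈ N, ∀ y ∈ P, g • y ∈ P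

/-- The permutation action of `N` on the invariant set `P`. -/
def actP (N : Subgroup G) (P : Set Ω) (h : Pres N P) : ↥N →* Perm P where
  toFun g :=
    { toFun := fun y => ⟨(g : G) • (y : Ω), h _ g.2 _ y.2⟩
      invFun := fun y => ⟨(g : G)⁻¹ • (y : Ω), h _ (inv_mem g.2) _ y.2⟩
      left_inv := by intro y; ext; simp
      right_inv := by intro y; ext; simp }
  map_one' := by ext; simp
  map_mul' := by intro a b; ext; simp [mul_smul]

@[simp] theorem actP_apply {N : Subgroup G} {P : Set Ω} (h : Pres N P) (g : N) (y : P) :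
    ((actP N P h g y : P) : Ω) = (g : G) • (y : Ω) := rfl

theorem Pres.mono {N M : Subgroup G} {P : Set Ω} (hM : Pres M P) (h : N ≤ M) : Pres N P :=
  fun g hg y hy => hM g (h hg) y hy

theorem mem_ker_actP {N : Subgroup G} {P : Set Ω} (h : Pres N P) (g : N) :
    g ∈ (actP N P h).ker ↔ (g : G) ∈ fixingSubgroup G P := by
  rw [MonoidHom.mem_ker, mem_fixingSubgroup_iff]
  constructor
  · intro e y hy
    have := congrArg (fun f : Perm P => ((f ⟨y, hy⟩ : P) : Ω)) e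
    simpa using this
  · intro e
    ext y
    simpa using e y y.2

/-- Conjugation by an element preserving `P` and normalising. -/
theorem Pres.fix_conj {x : G} {P : Set Ω} (hx : ∀ y ∈ P, x⁻¹ • y ∈ P) {g : G}
    (hg : g ∈ fixingSubgroup G P) : x * g * x⁻¹ ∈ fixingSubgroup G P := by
  rw [mem_fixingSubgroup_iff] at hg ⊢
  intro y hy
  rw [mul_smul, mul_smul, hg _ (hx y hy), smul_inv_smul]

theorem Pres.normalizes_fix {N : Subgroup G} {P : Set Ω} (hN : Pres N P) {x g : G} (hx : x ∈ N)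
    (hg : g ∈ fixingSubgroup G P) : x * g * x⁻¹ ∈ fixingSubgroup G P :=
  Pres.fix_conj (fun y hy => hN _ (inv_mem hx) y hy) hg

section card

variable {N : Subgroup G} {P : Set Ω}

theorem card_range_mul [Finite G] (h : Pres N P) :
    Nat.card (actP N P h).range * Nat.card ↥(N ⊓ fixingSubgroup G P) = Nat.card N := by
  have h1 := (actP N P h).ker.card_mul_index
  rw [Subgroup.index_ker] at h1
  have h2 : (actP N P h).ker = (N ⊓ fixingSubgroup G P).subgroupOf N := by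
    ext g
    rw [mem_ker_actP, mem_subgroupOf, mem_inf]
    exact ⟨fun e => ⟨g.2, e⟩, fun e => e.2⟩
  have h3 : Nat.card (actP N P h).ker = Nat.card ↥(N ⊓ fixingSubgroup G P) := by
    rw [h2]
    exact Nat.card_congr (Subgroup.subgroupOfEquivOfLe inf_le_left).toEquiv
  rw [h3, mul_comm] at h1
  exact h1

variable [Finite Ω]

/-- `N` induces at least the alternating group on `P`. -/
def Induces (N : Subgroup G) (P : Set Ω) : Prop :=
  ∀ σ ∈ Alt P, ∃ g ∈ N, ∀ y : P, g • (y : Ω) = σ y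

theorem Induces.mono {M : Subgroup G} (hi : Induces N P) (h : N ≤ M) : Induces M P := fun σ hσ => by
  obtain ⟨g, hg, e⟩ := hi σ hσ
  exact ⟨g, h hg, e⟩

theorem Alt_le_range (h : Pres N P) (hi : Induces N P) : Alt P ≤ (actP N P h).range := by
  intro σ hσ
  obtain ⟨g, hg, e⟩ := hi σ hσ
  refine ⟨⟨g, hg⟩, ?_⟩
  ext y
  exact e y

theorem induces_of_le_range (h : Pres N P) (hi : Alt P ≤ (actP N P h).range) : Induces N P := by
  intro σ hσ
  obtain ⟨g, rfl⟩ := hi hσ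
  exact ⟨g, g.2, fun y => rfl⟩

theorem fixes_or_induces (h5 : 5 ≤ Nat.card P) {S M : Subgroup G} (hS : Pres S P) (hM : Pres M P)
    (hind : Induces M P) (hn : ∀ m ∈ M, ∀ s ∈ S, m * s * m⁻¹ ∈ S) :
    S ≤ fixingSubgroup G P ∨ Induces S P := by
  have key : ∀ σ ∈ Alt P, ∀ x ∈ (actP S P hS).range, σ * x * σ⁻¹ ∈ (actP S P hS).range := by
    rintro σ hσ _ ⟨s, rfl⟩
    obtain ⟨m, hm, e⟩ := hind σ hσ
    refine ⟨⟨m * s * m⁻¹, hn m hm s s.2⟩, ?_⟩
    have hσinv : ∀ y : P, ((σ⁻¹ y : P) : Ω) = m⁻¹ • (y : Ω) := by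
      intro y
      have e1 := e (σ⁻¹ y)
      have e0 : σ (σ⁻¹ y) = y := by simp
      rw [e0] at e1
      rw [← e1, inv_smul_smul]
    ext y
    have e2 := e (actP S P hS s (σ⁻¹ y))
    simp only [Perm.coe_mul, Function.comp_apply]
    rw [← e2, actP_apply, actP_apply, hσinv]
    simp [mul_smul]
  rcases eq_bot_or_Alt_le h5 _ key with hb | hl
  · left
    intro s hs
    have : (⟨s, hs⟩ : S) ∈ (actP S P hS).ker := by
      rw [MonoidHom.mem_ker]
      have hh : actP S P hS ⟨s, hs⟩ ∈ (actP S P hS).range := ⟨_, rfl⟩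
      rw [hb, mem_bot] at hh
      exact hh
    exact (mem_ker_actP hS _).mp this
  · right
    exact induces_of_le_range hS hl

theorem fix_of_comm (hP : Pres N P) (hi : Induces N P) (h4 : 4 ≤ Nat.card P) {z : G} (hz : z ∈ N)
    (hc : ∀ n ∈ N, n * z = z * n) : z ∈ fixingSubgroup G P := by
  have h1 : actP N P hP ⟨z, hz⟩ = 1 := by
    apply eq_one_of_comm_Alt h4
    intro σ hσ
    obtain ⟨n, hn, e⟩ := hi σ hσ
    have e1 : σ = actP N P hP ⟨n, hn⟩ := by
      ext y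
      exact (e y).symm
    rw [e1, ← map_mul, ← map_mul]
    congr 1
    exact Subtype.ext (hc n hn)
  exact (mem_ker_actP hP _).mp h1

section
variable [Finite G]

theorem card_le (h : Pres N P) :
    Nat.card N ≤ (Nat.card P)! * Nat.card ↥(N ⊓ fixingSubgroup G P) := by
  rw [← card_range_mul h]
  apply Nat.mul_le_mul_right
  have := Subgroup.card_le_card_group (actP N P h).range
  rwa [Nat.card_perm] at this

theorem card_ge (h : Pres N P) (hi : Induces N P) :
    Nat.card (Alt P) * Nat.card ↥(N ⊓ fixingSubgroup G P) ≤ Nat.card N := by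
  rw [← card_range_mul h]
  apply Nat.mul_le_mul_right
  exact Nat.card_mono (Set.toFinite _) (Alt_le_range h hi)

theorem induces_of_card (h : Pres N P)
    (hc : (Nat.card P)! * Nat.card ↥(N ⊓ fixingSubgroup G P) ≤ 2 * Nat.card N) : Induces N P := by
  apply induces_of_le_range h
  apply Alt_le_of_card
  rw [← card_range_mul h, ← mul_assoc] at hc
  exact Nat.le_of_mul_le_mul_right hc Nat.card_pos

end

theorem Induces.exists_smul (hi : Induces N P) (h3 : 3 ≤ Nat.card P) {x y : Ω} (hx : x ∈ P)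
    (hy : y ∈ P) : ∃ g ∈ N, g • x = y := by
  obtain ⟨σ, hσ, e⟩ := exists_Alt_smul_eq h3 (⟨x, hx⟩ : P) ⟨y, hy⟩
  obtain ⟨g, hg, e2⟩ := hi σ hσ
  refine ⟨g, hg, ?_⟩
  have := e2 ⟨x, hx⟩
  rw [e] at this
  exact this

theorem Induces.exists_smul₂ (hi : Induces N P) (h4 : 4 ≤ Nat.card P) {x y x' y' : Ω} (hx : x ∈ P)
    (hy : y ∈ P) (hx' : x' ∈ P) (hy' : y' ∈ P) (hxy : x ≠ y) (hxy' : x' ≠ y') :
    ∃ g ∈ N, g • x = x' ∧ g • y = y' := by
  obtain ⟨σ, hσ, e, e'⟩ := exists_Alt_smul_eq₂ h4 (x := (⟨x, hx⟩ : P)) (y := ⟨y, hy⟩)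
    (x' := ⟨x', hx'⟩) (y' := ⟨y', hy'⟩) (fun h => hxy (congrArg Subtype.val h))
    (fun h => hxy' (congrArg Subtype.val h))
  obtain ⟨g, hg, e2⟩ := hi σ hσ
  refine ⟨g, hg, ?_, ?_⟩
  · have := e2 ⟨x, hx⟩
    rw [e] at this
    exact this
  · have := e2 ⟨y, hy⟩
    rw [e'] at this
    exact this

theorem exists_not_comm (h5 : 5 ≤ Nat.card P) {M : Subgroup G} (hN : Induces N P)
    (hM : Induces M P) : ∃ n ∈ N, ∃ m ∈ M, ∃ y ∈ P, (n * m) • y ≠ (m * n) • y := by
  by_contra hcon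
  push Not at hcon
  apply Alt_not_comm h5
  intro α hα β hβ
  obtain ⟨n, hn, en⟩ := hN α hα
  obtain ⟨m, hm, em⟩ := hM β hβ
  ext y
  have h1 := hcon n hn m hm y y.2
  simp only [mul_smul] at h1
  simp only [Perm.coe_mul, Function.comp_apply]
  have e1 : n • m • (y : Ω) = ((α (β y) : P) : Ω) := by
    rw [em y]; exact en (β y)
  have e2 : m • n • (y : Ω) = ((β (α y) : P) : Ω) := by
    rw [en y]; exact em (α y)
  rw [← e1, ← e2]
  exact h1

theorem Induces.not_isPGroup (h5 : 5 ≤ Nat.card P) (h : Pres N P) (hi : Induces N P) {p : ℕ}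
    [Fact p.Prime] (hp : IsPGroup p N) : False := by
  have h1 : IsPGroup p (actP N P h).range :=
    hp.of_surjective (actP N P h).rangeRestrict (MonoidHom.rangeRestrict_surjective _)
  exact not_isPGroup_Alt h5 p (h1.to_le (Alt_le_range h hi))

theorem not_induces_bot (h5 : 5 ≤ Nat.card P) : ¬ Induces (⊥ : Subgroup G) P := by
  intro hi
  apply Alt_not_comm h5
  have key : ∀ α ∈ Alt P, α = 1 := by
    intro α hα
    obtain ⟨g, hg, e⟩ := hi α hα
    rw [mem_bot] at hg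
    ext y
    rw [← e y, hg]
    simp
  intro α hα β hβ
  rw [key α hα, key β hβ]

theorem Induces.ne_bot (h5 : 5 ≤ Nat.card P) (hi : Induces N P) : N ≠ ⊥ := by
  rintro rfl
  exact not_induces_bot h5 hi

theorem Induces.not_fixes (h5 : 5 ≤ Nat.card P) (hi : Induces N P) : ¬ N ≤ fixingSubgroup G P := by
  intro hle
  apply Alt_not_comm h5
  have key : ∀ α ∈ Alt P, α = 1 := by
    intro α hα
    obtain ⟨g, hg, e⟩ := hi α hα
    ext y
    rw [← e y, (mem_fixingSubgroup_iff G).mp (hle hg) y y.2]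
    simp
  intro α hα β hβ
  rw [key α hα, key β hβ]

/-- Conjugation. -/
theorem Induces.conj {M : Subgroup G} (hM : Pres M P) {x : G} (hx : x ∈ M) (hi : Induces N P) :
    Induces (MulAut.conj x • N) P := by
  intro σ hσ
  set y : M := ⟨x, hx⟩ with hy
  set xb := actP M P hM y with hxb
  have h1 : xb⁻¹ * σ * xb⁻¹⁻¹ ∈ Alt P := (Alt_normal).conj_mem σ hσ xb⁻¹
  obtain ⟨g, hg, e⟩ := hi _ h1
  refine ⟨x * g * x⁻¹, ?_, ?_⟩
  · rw [mem_conj]
    simpa [mul_assoc] using hg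
  · intro z
    have h3 : ((xb⁻¹ z : P) : Ω) = x⁻¹ • (z : Ω) := by
      have : xb⁻¹ = actP M P hM y⁻¹ := (map_inv _ _).symm
      rw [this]
      rfl
    have h4 := e (xb⁻¹ z)
    rw [h3] at h4
    simp only [mul_smul]
    rw [h4]
    have h5 : (xb⁻¹ * σ * xb⁻¹⁻¹) (xb⁻¹ z) = xb⁻¹ (σ z) := by
      simp [Perm.mul_apply]
    rw [h5]
    have h6 : ((xb (xb⁻¹ (σ z)) : P) : Ω) = x • ((xb⁻¹ (σ z) : P) : Ω) := rfl
    rw [← h6]
    simp

end card

/-! ### Restriction to the complement of a point -/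

section restrict

variable [Finite Ω] {P : Set Ω} {y : Ω}

/-- The complement of a point in `P`. -/
def Del (P : Set Ω) (y : Ω) : Set Ω := {c | c ∈ P ∧ c ≠ y}

theorem mem_Del {P : Set Ω} {y c : Ω} : c ∈ Del P y ↔ c ∈ P ∧ c ≠ y := Iff.rfl

/-- Identify the deletion with a subtype of `P`. -/
def delEquiv (P : Set Ω) (y : Ω) : ↥(Del P y) ≃ {z : P // (z : Ω) ≠ y} where
  toFun c := ⟨⟨c.1, c.2.1⟩, c.2.2⟩
  invFun z := ⟨z.1.1, z.1.2, z.2⟩
  left_inv _ := rfl
  right_inv _ := rfl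

open Classical in
/-- Extension of a permutation of the deletion by fixing the point. -/
noncomputable def extPerm (P : Set Ω) (y : Ω) (σ : Perm ↥(Del P y)) : Perm P :=
  Perm.ofSubtype ((delEquiv P y).permCongr σ)

theorem extPerm_apply_mem (σ : Perm ↥(Del P y)) (c : ↥(Del P y)) :
    ((extPerm P y σ ⟨c.1, c.2.1⟩ : P) : Ω) = σ c := by
  classical
  unfold extPerm
  rw [Perm.ofSubtype_apply_of_mem (a := (⟨c.1, c.2.1⟩ : P)) _ c.2.2]
  rfl

theorem extPerm_apply_self (σ : Perm ↥(Del P y)) (hy : y ∈ P) :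
    extPerm P y σ ⟨y, hy⟩ = ⟨y, hy⟩ := by
  classical
  unfold extPerm
  exact Perm.ofSubtype_apply_of_not_mem _ (by simp)

theorem extPerm_mem_Alt_iff (σ : Perm ↥(Del P y)) : extPerm P y σ ∈ Alt P ↔ σ ∈ Alt ↥(Del P y) := by
  classical
  haveI : Fintype P := Fintype.ofFinite _
  haveI : Fintype ↥(Del P y) := Fintype.ofFinite _
  rw [mem_Alt_iff, mem_Alt_iff]
  unfold extPerm
  rw [Perm.sign_ofSubtype, Perm.sign_permCongr]

/-- Every permutation of `P` fixing `y` is an extension. -/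
theorem exists_extPerm (hy : y ∈ P) (τ : Perm P) (hτ : τ ⟨y, hy⟩ = ⟨y, hy⟩) :
    ∃ σ : Perm ↥(Del P y), extPerm P y σ = τ ∧ ∀ c : ↥(Del P y), ((σ c : ↥(Del P y)) : Ω) = τ ⟨c.1, c.2.1⟩ := by
  classical
  have hne : ∀ z : P, (z : Ω) ≠ y → ((τ z : P) : Ω) ≠ y := by
    intro z hz e
    have : τ z = τ ⟨y, hy⟩ := by
      rw [hτ]; exact Subtype.ext e
    exact hz (congrArg Subtype.val (τ.injective this))
  have hne' : ∀ z : P, (z : Ω) ≠ y → ((τ⁻¹ z : P) : Ω) ≠ y := by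
    intro z hz e
    have h1 : τ⁻¹ z = ⟨y, hy⟩ := Subtype.ext e
    have h2 : z = τ ⟨y, hy⟩ := by rw [← h1]; simp
    rw [hτ] at h2
    exact hz (congrArg Subtype.val h2)
  let σ : Perm ↥(Del P y) :=
    { toFun := fun c => ⟨τ ⟨c.1, c.2.1⟩, (τ _).2, hne _ c.2.2⟩
      invFun := fun c => ⟨τ⁻¹ ⟨c.1, c.2.1⟩, (τ⁻¹ _).2, hne' _ c.2.2⟩
      left_inv := by intro c; ext; simp
      right_inv := by intro c; ext; simp }
  refine ⟨σ, ?_, fun c => rfl⟩
  ext z
  by_cases hz : (z : Ω) = y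
  · have : z = ⟨y, hy⟩ := Subtype.ext hz
    rw [this, extPerm_apply_self, hτ]
  · have := extPerm_apply_mem σ ⟨z.1, z.2, hz⟩
    exact this

/-- Restricting to the deletion preserves evenness. -/
theorem mem_Alt_iff_of_restrict (hy : y ∈ P) (τ : Perm P) (hτ : τ ⟨y, hy⟩ = ⟨y, hy⟩)
    (σ : Perm ↥(Del P y)) (hσ : ∀ c : ↥(Del P y), ((σ c : ↥(Del P y)) : Ω) = τ ⟨c.1, c.2.1⟩) :
    τ ∈ Alt P ↔ σ ∈ Alt ↥(Del P y) := by
  obtain ⟨σ', e1, e2⟩ := exists_extPerm hy τ hτ
  have : σ' = σ := by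
    ext c
    rw [e2, hσ]
  rw [← e1, this, extPerm_mem_Alt_iff]

theorem Induces.del {N : Subgroup G} (hN : Induces N P) (hy : y ∈ P) :
    Induces (N ⊓ stabilizer G y) (Del P y) := by
  intro σ hσ
  have h1 := (extPerm_mem_Alt_iff σ).mpr hσ
  obtain ⟨g, hg, e⟩ := hN _ h1
  refine ⟨g, ⟨hg, ?_⟩, ?_⟩
  · have := e ⟨y, hy⟩
    rw [extPerm_apply_self] at this
    exact this
  · intro c
    have := e ⟨c.1, c.2.1⟩
    rw [extPerm_apply_mem] at this
    exact this

theorem Pres.del {N : Subgroup G} (hN : Pres N P) (hy : N ≤ stabilizer G y) : Pres N (Del P y) := by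
  intro g hg c hc
  refine ⟨hN g hg c hc.1, fun e => hc.2 ?_⟩
  have h2 : g • y = y := hy hg
  rw [← h2] at e
  exact smul_left_cancel g e

theorem actP_mem_Alt_iff_del {N : Subgroup G} (hN : Pres N P) (hy : y ∈ P) (hs : N ≤ stabilizer G y)
    (g : N) : actP N P hN g ∈ Alt P ↔ actP N (Del P y) (hN.del hs) g ∈ Alt ↥(Del P y) := by
  apply mem_Alt_iff_of_restrict hy
  · apply Subtype.ext
    exact hs g.2
  · intro c
    rfl

theorem card_Del (hy : y ∈ P) : Nat.card ↥(Del P y) + 1 = Nat.card P := by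
  classical
  have e : ↥(Del P y) ≃ {z : P // z ≠ ⟨y, hy⟩} :=
    { toFun := fun c => ⟨⟨c.1, c.2.1⟩, fun h => c.2.2 (congrArg Subtype.val h)⟩
      invFun := fun z => ⟨z.1.1, z.1.2, fun h => z.2 (Subtype.ext h)⟩
      left_inv := fun _ => rfl
      right_inv := fun _ => rfl }
  rw [Nat.card_congr e]
  haveI := Fintype.ofFinite P
  rw [Nat.card_eq_fintype_card, Nat.card_eq_fintype_card, Fintype.card_subtype_compl]
  simp only [Fintype.card_unique]
  have : 0 < Fintype.card P := Fintype.card_pos_iff.mpr ⟨⟨y, hy⟩⟩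
  omega

end restrict

end Cfsg.Agent.Lib.Knapp.Act
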