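import Cfsg.Agent.Lib.Knapp.Perm

/-!
# Abstract assembly of the isomorphisms in Knapp's theorem
-/

set_option autoImplicit false

namespace Cfsg.Agent.Lib.Knapp.Assemble

open Equiv Subgroup
open Cfsg.Agent.Lib.Knapp.Perm
open scoped Nat

variable {A : Type*} [Group A]

/-- Internal direct products. -/
theorem direct [Finite A] (K C : Subgroup A) [hK : K.Normal] (hcomm : ∀ k ∈ K, ∀ c ∈ C, k * c = c * k)
    (hinf : K ⊓ C = ⊥) (hsup : K ⊔ C = ⊤) : Nonempty (A ≃* C × K) := by
  let f : C × K →* A :=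
    { toFun := fun p => (p.1 : A) * (p.2 : A)
      map_one' := by simp
      map_mul' := by
        rintro ⟨c₁, k₁⟩ ⟨c₂, k₂⟩
        simp only [Prod.mk_mul_mk, coe_mul]
        have := hcomm k₁ k₁.2 c₂ c₂.2
        calc (c₁ : A) * c₂ * (k₁ * k₂) = c₁ * (c₂ * k₁) * k₂ := by group
          _ = c₁ * (k₁ * c₂) * k₂ := by rw [this]
          _ = _ := by group }
  have hinj : Function.Injective f := by
    rw [injective_iff_map_eq_one]
    rintro ⟨c, k⟩ hck
    have e : (c : A) * k = 1 := hck
    have h1 : (c : A) = (k : A)⁻¹ := eq_inv_of_mul_eq_one_left e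
    have h2 : (c : A) ∈ K ⊓ C := mem_inf.mpr ⟨by rw [h1]; exact inv_mem k.2, c.2⟩
    rw [hinf, mem_bot] at h2
    have h3 : (k : A) = 1 := by simpa [h2] using e
    exact Prod.ext (Subtype.ext h2) (Subtype.ext h3)
  have hsurj : Function.Surjective f := by
    intro g
    have hg : g ∈ K ⊔ C := by rw [hsup]; trivial
    obtain ⟨k, hk', c, hc, rfl⟩ := Subgroup.mem_sup_of_normal_left.mp hg
    refine ⟨(⟨c, hc⟩, ⟨k, hk'⟩), ?_⟩
    exact (hcomm k hk' c hc).symm
  exact ⟨(MulEquiv.ofBijective f ⟨hinj, hsurj⟩).symm⟩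

/-- A subgroup meeting the kernel trivially is isomorphic to its image. -/
theorem equivMap {B : Type*} [Group B] (ph : A →* B) (C : Subgroup A) (hinf : ph.ker ⊓ C = ⊥) :
    Nonempty (C ≃* C.map ph) := by
  let f : C →* B := ph.comp C.subtype
  have hf : Function.Injective f := by
    rw [injective_iff_map_eq_one]
    intro c hc
    have h1 : (c : A) ∈ ph.ker ⊓ C := mem_inf.mpr ⟨hc, c.2⟩
    rw [hinf, mem_bot] at h1
    exact Subtype.ext h1
  have e : f.range = C.map ph := by
    rw [MonoidHom.range_comp, Subgroup.range_subtype]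
  exact ⟨(MonoidHom.ofInjective hf).trans (MulEquiv.subgroupCongr e)⟩

/-- Extension of a homomorphism from a supplement of a normal subgroup. -/
theorem extend_hom {B : Type*} [Group B] (N L : Subgroup A) [N.Normal] (hNL : N ⊔ L = ⊤)
    (f : L →* B) (hf : ∀ x : L, (x : A) ∈ N → f x = 1) :
    ∃ F : A →* B, (∀ x : L, F x = f x) ∧ ∀ n ∈ N, F n = 1 := by
  let π : L →* A ⧸ N := (QuotientGroup.mk' N).comp L.subtype
  have hπ : Function.Surjective π := by
    intro q
    obtain ⟨g, rfl⟩ := QuotientGroup.mk'_surjective N q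
    have hg : g ∈ N ⊔ L := by rw [hNL]; trivial
    obtain ⟨n, hn, l, hl, rfl⟩ := Subgroup.mem_sup_of_normal_left.mp hg
    refine ⟨⟨l, hl⟩, ?_⟩
    change ((l : A) : A ⧸ N) = ((n * l : A) : A ⧸ N)
    rw [QuotientGroup.eq]
    have : (l : A)⁻¹ * (n * l) = l⁻¹ * n * l⁻¹⁻¹ := by group
    rw [this]
    exact (inferInstance : N.Normal).conj_mem _ hn _
  have hker : π.ker ≤ f.ker := by
    intro x hx
    rw [MonoidHom.mem_ker] at hx ⊢
    apply hf
    have : ((x : A) : A ⧸ N) = 1 := hx
    rwa [QuotientGroup.eq_one_iff] at this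
  let F₀ : A ⧸ N →* B := MonoidHom.liftOfSurjective π hπ ⟨f, hker⟩
  refine ⟨F₀.comp (QuotientGroup.mk' N), ?_, ?_⟩
  · intro x
    exact MonoidHom.liftOfRightInverse_comp_apply π (Function.surjInv hπ)
      (Function.rightInverse_surjInv hπ) ⟨f, hker⟩ x
  · intro n hn
    have : (QuotientGroup.mk' N) n = 1 := by
      rw [QuotientGroup.mk'_apply, QuotientGroup.eq_one_iff]
      exact hn
    change F₀ (QuotientGroup.mk' N n) = 1
    rw [this, map_one]

/-- The third isomorphism type. -/
theorem kerSign [Finite A] {D D' : Type*} [Finite D] [Finite D']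
    (ph : A →* Perm D) (F : A →* Perm D') {n m : ℕ} (hD : Nat.card D = n) (hD' : Nat.card D' = m)
    (hinj : ∀ g, ph g = 1 → F g = 1 → g = 1)
    (hsign : ∀ g, ph g ∈ Alt D ↔ F g ∈ Alt D')
    (hcard : 2 * Nat.card A = n ! * m !) (h2 : 2 ≤ n) :
    Nonempty (A ≃* ((Equiv.Perm.sign.comp (MonoidHom.fst (Equiv.Perm (Fin n)) (Equiv.Perm (Fin m)))) *
         (Equiv.Perm.sign.comp (MonoidHom.snd (Equiv.Perm (Fin n)) (Equiv.Perm (Fin m))))).ker) := by
  classical
  haveI := Fintype.ofFinite D
  haveI := Fintype.ofFinite D'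
  have e₁ : D ≃ Fin n := Fintype.equivFinOfCardEq (by rw [← Nat.card_eq_fintype_card, hD])
  have e₂ : D' ≃ Fin m := Fintype.equivFinOfCardEq (by rw [← Nat.card_eq_fintype_card, hD'])
  let ph' : A →* Perm (Fin n) := (Equiv.permCongrHom e₁).toMonoidHom.comp ph
  let F' : A →* Perm (Fin m) := (Equiv.permCongrHom e₂).toMonoidHom.comp F
  have hs1 : ∀ g, Perm.sign (ph' g) = Perm.sign (ph g) := fun g => by
    change Perm.sign (e₁.permCongr (ph g)) = _
    exact Perm.sign_permCongr _ _
  have hs2 : ∀ g, Perm.sign (F' g) = Perm.sign (F g) := fun g => by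
    change Perm.sign (e₂.permCongr (F g)) = _
    exact Perm.sign_permCongr _ _
  have hs : ∀ g, Perm.sign (ph' g) = Perm.sign (F' g) := by
    intro g
    rw [hs1, hs2]
    have := hsign g
    rw [mem_Alt_iff, mem_Alt_iff] at this
    rcases Int.units_eq_one_or (Perm.sign (ph g)) with h1 | h1
    · rw [h1, this.mp h1]
    · have h3 : Perm.sign (F g) ≠ 1 := fun e => by
        rw [this.mpr e] at h1
        exact absurd h1 (by decide)
      rw [h1, (Int.units_eq_one_or _).resolve_left h3]
  set T := ((Equiv.Perm.sign.comp (MonoidHom.fst (Equiv.Perm (Fin n)) (Equiv.Perm (Fin m)))) *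
         (Equiv.Perm.sign.comp (MonoidHom.snd (Equiv.Perm (Fin n)) (Equiv.Perm (Fin m))))).ker with hT
  have hmem : ∀ g, (ph' g, F' g) ∈ T := by
    intro g
    rw [hT, MonoidHom.mem_ker]
    change Perm.sign (ph' g) * Perm.sign (F' g) = 1
    rw [hs]
    exact Int.units_mul_self _
  let E : A →* T :=
    { toFun := fun g => ⟨(ph' g, F' g), hmem g⟩
      map_one' := by ext <;> simp
      map_mul' := by intro x y; ext <;> simp }
  have hEinj : Function.Injective E := by
    rw [injective_iff_map_eq_one]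
    intro g hg
    have h1 : ph' g = 1 := congrArg (fun x : T => x.1.1) hg
    have h3 : F' g = 1 := congrArg (fun x : T => x.1.2) hg
    apply hinj g
    · have : (Equiv.permCongrHom e₁) (ph g) = 1 := h1
      exact (map_eq_one_iff _ (Equiv.permCongrHom e₁).injective).mp this
    · have : (Equiv.permCongrHom e₂) (F g) = 1 := h3
      exact (map_eq_one_iff _ (Equiv.permCongrHom e₂).injective).mp this
  have hTcard : 2 * Nat.card T = n ! * m ! := by
    have hsurj : Function.Surjective
        ((Equiv.Perm.sign.comp (MonoidHom.fst (Equiv.Perm (Fin n)) (Equiv.Perm (Fin m)))) *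
         (Equiv.Perm.sign.comp (MonoidHom.snd (Equiv.Perm (Fin n)) (Equiv.Perm (Fin m))))) := by
      intro u
      haveI : Nontrivial (Fin n) := Fin.nontrivial_iff_two_le.mpr h2
      obtain ⟨s, hs'⟩ := Equiv.Perm.sign_surjective (Fin n) u
      refine ⟨(s, 1), ?_⟩
      simp [hs']
    have h4 := Subgroup.card_mul_index T
    rw [hT, Subgroup.index_ker, MonoidHom.range_eq_top.mpr hsurj] at h4
    have h5 : Nat.card (⊤ : Subgroup ℤˣ) = 2 := by
      rw [Nat.card_congr Subgroup.topEquiv.toEquiv]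
      simp [Nat.card_eq_fintype_card]
    rw [h5, Nat.card_prod, Nat.card_perm, Nat.card_perm] at h4
    rw [Nat.card_eq_fintype_card (α := Fin n), Nat.card_eq_fintype_card (α := Fin m),
      Fintype.card_fin, Fintype.card_fin] at h4
    rw [mul_comm]
    exact h4
  have hc : Nat.card A = Nat.card T := by omega
  have hbij : Function.Bijective E := by
    refine ⟨hEinj, ?_⟩
    exact (Nat.bijective_iff_injective_and_card E).mpr ⟨hEinj, hc⟩ |>.2
  exact ⟨MulEquiv.ofBijective E hbij⟩

/-- Transport to `Fin`. -/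
theorem altFin {P : Type*} [Finite P] {n : ℕ} (hP : Nat.card P = n) :
    Nonempty (Alt P ≃* alternatingGroup (Fin n)) := by
  classical
  haveI := Fintype.ofFinite P
  have e : P ≃ Fin n := Fintype.equivFinOfCardEq (by rw [← Nat.card_eq_fintype_card, hP])
  have h1 : Alt P = alternatingGroup P := Alt_eq P
  exact ⟨(MulEquiv.subgroupCongr h1).trans e.altCongrHom⟩

theorem permFin {P : Type*} [Finite P] {n : ℕ} (hP : Nat.card P = n) :
    Nonempty (Perm P ≃* Perm (Fin n)) := by
  classical
  haveI := Fintype.ofFinite P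
  have e : P ≃ Fin n := Fintype.equivFinOfCardEq (by rw [← Nat.card_eq_fintype_card, hP])
  exact ⟨Equiv.permCongrHom e⟩

theorem topFin {P : Type*} [Finite P] {n : ℕ} (hP : Nat.card P = n) :
    Nonempty ((⊤ : Subgroup (Perm P)) ≃* Perm (Fin n)) := by
  obtain ⟨e⟩ := permFin hP
  exact ⟨Subgroup.topEquiv.trans e⟩

end Cfsg.Agent.Lib.Knapp.Assemble
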