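import Cfsg.Agent.Lib.Knapp.Act

/-!
# Chains of intersections: descent, independence, order bounds
-/

set_option autoImplicit false

namespace Cfsg.Agent.Lib.Knapp.Chain

open Equiv Subgroup MulAction
open Cfsg.Agent.Lib.Knapp.Perm Cfsg.Agent.Lib.Knapp.Act
open scoped Nat Pointwise

variable {G Ω : Type*} [Group G] [MulAction G Ω] {ι : Type*}

/-- Intersection of `Y` with the fixers of the `Q i`, `i ∈ s`. -/
def Zf (Y : Subgroup G) (Q : ι → Set Ω) (s : Finset ι) : Subgroup G :=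
  Y ⊓ ⨅ i ∈ s, fixingSubgroup G (Q i)

theorem mem_Zf {Y : Subgroup G} {Q : ι → Set Ω} {s : Finset ι} {g : G} :
    g ∈ Zf Y Q s ↔ g ∈ Y ∧ ∀ i ∈ s, g ∈ fixingSubgroup G (Q i) := by
  simp only [Zf, mem_inf, mem_iInf]

theorem Zf_empty (Y : Subgroup G) (Q : ι → Set Ω) : Zf Y Q ∅ = Y := by
  ext g
  simp [mem_Zf]

theorem Zf_insert [DecidableEq ι] (Y : Subgroup G) (Q : ι → Set Ω) (s : Finset ι) (k : ι) :
    Zf Y Q (insert k s) = Zf Y Q s ⊓ fixingSubgroup G (Q k) := by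
  ext g
  simp only [mem_inf, mem_Zf, Finset.mem_insert, forall_eq_or_imp]
  tauto

theorem Zf_le (Y : Subgroup G) (Q : ι → Set Ω) (s : Finset ι) : Zf Y Q s ≤ Y := inf_le_left

theorem Zf_normal {K₀ Y : Subgroup G} {Q : ι → Set Ω} (hQ : ∀ i, Pres K₀ (Q i))
    (hn : ∀ k ∈ K₀, ∀ y ∈ Y, k * y * k⁻¹ ∈ Y) (s : Finset ι) :
    ∀ k ∈ K₀, ∀ y ∈ Zf Y Q s, k * y * k⁻¹ ∈ Zf Y Q s := by
  intro k hk y hy
  rw [mem_Zf] at hy ⊢
  exact ⟨hn k hk y hy.1, fun i hi => (hQ i).normalizes_fix hk (hy.2 i hi)⟩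

variable [Finite Ω]

/-- **Chain descent.** -/
theorem chain_descent [Finite G] [DecidableEq ι] {Ψ : Set Ω} (h5 : 5 ≤ Nat.card Ψ) (Q : ι → Set Ω)
    {X : Subgroup G} (hX : Pres X Ψ) (hXi : Induces X Ψ) (s : Finset ι)
    (hQ : ∀ i ∈ s, Pres X (Q i)) (hc : ∀ i ∈ s, (Nat.card (Q i))! < Nat.card (Alt Ψ)) :
    Induces (Zf X Q s) Ψ := by
  induction s using Finset.induction_on with
  | empty => rwa [Zf_empty]
  | @insert k s hk ih =>
    have ih' := ih (fun i hi => hQ i (Finset.mem_insert_of_mem hi))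
      (fun i hi => hc i (Finset.mem_insert_of_mem hi))
    rw [Zf_insert]
    set Z := Zf X Q s with hZ
    have hZX : Z ≤ X := Zf_le _ _ _
    have hQk : Pres Z (Q k) := (hQ k (Finset.mem_insert_self _ _)).mono hZX
    have hPsi : Pres Z Ψ := hX.mono hZX
    have hS : Pres (Z ⊓ fixingSubgroup G (Q k)) Ψ := hPsi.mono inf_le_left
    have hnorm : ∀ m ∈ Z, ∀ t ∈ Z ⊓ fixingSubgroup G (Q k), m * t * m⁻¹ ∈ Z ⊓ fixingSubgroup G (Q k) := by
      intro m hm t ht
      have ht' := mem_inf.mp ht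
      exact mem_inf.mpr ⟨mul_mem (mul_mem hm ht'.1) (inv_mem hm), hQk.normalizes_fix hm ht'.2⟩
    rcases fixes_or_induces h5 hS hPsi ih' hnorm with hf | hi
    · exfalso
      have h1 := card_le hQk
      have h2 := card_ge hPsi ih'
      have h3 : Nat.card ↥(Z ⊓ fixingSubgroup G (Q k)) ≤ Nat.card ↥(Z ⊓ fixingSubgroup G Ψ) :=
        Nat.card_mono (Set.toFinite _) (le_inf inf_le_left hf)
      have h4 := hc k (Finset.mem_insert_self _ _)
      have hpos : 0 < Nat.card ↥(Z ⊓ fixingSubgroup G (Q k)) := Nat.card_pos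
      have : Nat.card (Alt Ψ) * Nat.card ↥(Z ⊓ fixingSubgroup G (Q k)) ≤
          (Nat.card (Q k))! * Nat.card ↥(Z ⊓ fixingSubgroup G (Q k)) :=
        (Nat.mul_le_mul_left _ h3).trans (h2.trans h1)
      have := Nat.le_of_mul_le_mul_right this hpos
      omega
    · exact hi

/-- **Independence.** -/
theorem indep [DecidableEq ι] (Q : ι → Set Ω) {K₀ : Subgroup G} (hQ : ∀ i, Pres K₀ (Q i))
    (h5 : ∀ i, 5 ≤ Nat.card (Q i))
    (hind : ∀ i j, i ≠ j → Induces (K₀ ⊓ fixingSubgroup G (Q i)) (Q j))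
    {Y : Subgroup G} (hYK : Y ≤ K₀) (hn : ∀ k ∈ K₀, ∀ y ∈ Y, k * y * k⁻¹ ∈ Y)
    (hYi : ∀ i, Induces Y (Q i)) (s : Finset ι) (k : ι) (hk : k ∉ s) :
    Induces (Zf Y Q s) (Q k) := by
  induction s using Finset.induction_on with
  | empty => rw [Zf_empty]; exact hYi k
  | @insert j s hj ih =>
    have hkj : j ≠ k := fun e => hk (e ▸ Finset.mem_insert_self _ _)
    have hks : k ∉ s := fun e => hk (Finset.mem_insert_of_mem e)
    have ih' := ih hks
    rw [Zf_insert]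
    set Z := Zf Y Q s with hZ
    have hZK : Z ≤ K₀ := (Zf_le _ _ _).trans hYK
    have hZn := Zf_normal hQ hn s
    have hPZ : Pres Z (Q k) := (hQ k).mono hZK
    have hS : Pres (Z ⊓ fixingSubgroup G (Q j)) (Q k) := hPZ.mono inf_le_left
    have hnorm : ∀ m ∈ Z, ∀ t ∈ Z ⊓ fixingSubgroup G (Q j), m * t * m⁻¹ ∈ Z ⊓ fixingSubgroup G (Q j) := by
      intro m hm t ht
      have ht' := mem_inf.mp ht
      exact mem_inf.mpr ⟨mul_mem (mul_mem hm ht'.1) (inv_mem hm), (hQ j).normalizes_fix (hZK hm) ht'.2⟩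
    rcases fixes_or_induces (h5 k) hS hPZ ih' hnorm with hf | hi
    · exfalso
      obtain ⟨n, hn', m, hm, y, hy, hne⟩ := exists_not_comm (h5 k) ih' (hind j k hkj)
      apply hne
      have hm' := mem_inf.mp hm
      have hc : n * m * n⁻¹ * m⁻¹ ∈ Z ⊓ fixingSubgroup G (Q j) := by
        refine mem_inf.mpr ⟨?_, ?_⟩
        · have h1 : m * n⁻¹ * m⁻¹ ∈ Z := hZn m hm'.1 _ (inv_mem hn')
          have h2 := mul_mem hn' h1
          have e : n * (m * n⁻¹ * m⁻¹) = n * m * n⁻¹ * m⁻¹ := by group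
          rwa [e] at h2
        · exact mul_mem ((hQ j).normalizes_fix (hZK hn') hm'.2) (inv_mem hm'.2)
      have hfix := (mem_fixingSubgroup_iff G).mp (hf hc)
      have hy' : (m * n) • y ∈ Q k := (hQ k) _ (mul_mem hm'.1 (hZK hn')) y hy
      have h3 := hfix _ hy'
      rw [← h3, ← mul_smul]
      congr 1
      group
    · exact hi

/-- Lower bound for the order. -/
theorem card_lower [Finite G] [DecidableEq ι] (Q : ι → Set Ω) {K₀ Y : Subgroup G}
    (hQ : ∀ i, Pres K₀ (Q i)) (hYK : Y ≤ K₀) (s : Finset ι)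
    (hi : ∀ (s' : Finset ι) (k : ι), k ∉ s' → Induces (Zf Y Q s') (Q k)) :
    (∏ i ∈ s, Nat.card (Alt (Q i))) * Nat.card (Zf Y Q s) ≤ Nat.card Y := by
  induction s using Finset.induction_on with
  | empty => simp [Zf_empty]
  | @insert k s hk ih =>
    rw [Finset.prod_insert hk, Zf_insert]
    have h1 := card_ge (((hQ k).mono ((Zf_le Y Q s).trans hYK))) (hi s k hk)
    calc Nat.card (Alt (Q k)) * (∏ i ∈ s, Nat.card (Alt (Q i))) *
          Nat.card ↥(Zf Y Q s ⊓ fixingSubgroup G (Q k))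
        = (∏ i ∈ s, Nat.card (Alt (Q i))) *
          (Nat.card (Alt (Q k)) * Nat.card ↥(Zf Y Q s ⊓ fixingSubgroup G (Q k))) := by ring
      _ ≤ (∏ i ∈ s, Nat.card (Alt (Q i))) * Nat.card (Zf Y Q s) := Nat.mul_le_mul_left _ h1
      _ ≤ Nat.card Y := ih

/-- Upper bound for the order. -/
theorem card_upper [Finite G] [DecidableEq ι] (Q : ι → Set Ω) {Y : Subgroup G} (s : Finset ι)
    (hQ : ∀ i ∈ s, Pres Y (Q i)) :
    Nat.card Y ≤ (∏ i ∈ s, (Nat.card (Q i))!) * Nat.card (Zf Y Q s) := by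
  induction s using Finset.induction_on with
  | empty => simp [Zf_empty]
  | @insert k s hk ih =>
    rw [Finset.prod_insert hk, Zf_insert]
    have ih' := ih (fun i hi => hQ i (Finset.mem_insert_of_mem hi))
    have h1 := card_le ((hQ k (Finset.mem_insert_self _ _)).mono (Zf_le Y Q s))
    calc Nat.card Y ≤ (∏ i ∈ s, (Nat.card (Q i))!) * Nat.card (Zf Y Q s) := ih'
      _ ≤ (∏ i ∈ s, (Nat.card (Q i))!) *
          ((Nat.card (Q k))! * Nat.card ↥(Zf Y Q s ⊓ fixingSubgroup G (Q k))) :=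
        Nat.mul_le_mul_left _ h1
      _ = _ := by ring

end Cfsg.Agent.Lib.Knapp.Chain
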