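import Cfsg.Agent.Lib.Knapp.Chain
import Cfsg.Agent.Lib.WBound.Main
import Cfsg.Agent.Lib.TW.Cases

/-!
# First stage: the kernel on the in-neighbours lies in the kernel on the out-neighbours
-/

set_option autoImplicit false

namespace Cfsg.Agent.Lib.Knapp.One

open Equiv Subgroup MulAction
open Cfsg.Agent.Lib.Knapp.Perm Cfsg.Agent.Lib.Knapp.Act Cfsg.Agent.Lib.Knapp.Chain
open Cfsg.Agent.Lib.WBound Cfsg.Agent.Lib.Subnormal.Basic
open scoped Nat Pointwise

variable {G Ω : Type*} [Group G] [MulAction G Ω]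

/-- The reversed relation. -/
abbrev Op (R : Ω → Ω → Prop) : Ω → Ω → Prop := fun x y => R y x

variable {R : Ω → Ω → Prop}

theorem mem_Qi_op {c : Ω} {g : G} :
    g ∈ (Qi (Op R) c : Subgroup G) ↔ g • c = c ∧ ∀ y, R c y → g • y = y := mem_Qi

theorem pres_out (h : WData G R) {N : Subgroup G} {x : Ω} (hN : N ≤ stabilizer G x) :
    Pres N {y | R x y} := by
  intro g hg y hy
  have := h.inv g hy
  rwa [show g • x = x from hN hg] at this

theorem pres_in (h : WData G R) {N : Subgroup G} {x : Ω} (hN : N ≤ stabilizer G x) :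
    Pres N {y | R y x} := pres_out h.op hN

theorem pres_del [Finite Ω] (h : WData G R) {N : Subgroup G} {x y : Ω} (hN : N ≤ stabilizer G x)
    (hy : N ≤ stabilizer G y) : Pres N (Del {c | R x c} y) :=
  (pres_out h hN).del hy

theorem Qi_op_le_stab' {x y : Ω} (hr : R x y) : (Qi (Op R) x : Subgroup G) ≤ stabilizer G y :=
  fun _ hg => (mem_Qi_op.mp hg).2 y hr

theorem le_Qi_of_normal (h : WData G R) {x y : Ω} (hr : R x y) {X : Subgroup G}
    (hXy : X ≤ stabilizer G y) (hXx : X ≤ stabilizer G x)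
    (hn : stabilizer G y ≤ normalizer (X : Set G)) : X ≤ Qi R y := by
  intro g hg
  rw [mem_Qi]
  refine ⟨hXy hg, fun z hz => ?_⟩
  obtain ⟨k, hk1, hk2⟩ := h.edge hr hz
  have hk : k ∈ stabilizer G y := hk2
  have h1 : k⁻¹ * g * k ∈ X := by
    have := (mem_normalizer_iff.mp (hn (inv_mem hk)) g).mp hg
    simpa using this
  have h2 : (k⁻¹ * g * k) • x = x := hXx h1
  rw [mul_smul, mul_smul, hk1, inv_smul_eq_iff, hk1] at h2
  exact h2

section TW

variable [Finite G]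

theorem twData (h : WData G R) {x y : Ω} (hr : R x y) (h1 : (Ko R x : Subgroup G) ≠ ⊥)
    (h2 : (Ko (Op R) y : Subgroup G) ≠ ⊥) :
    Cfsg.Agent.Lib.TW.Cfg.Data (stabilizer G x) (stabilizer G y) (Qi (Op R) x) (Qi R y)
      (Ko R x) (Ko (Op R) y) where
  max₁ := h.coatom x
  max₂ := h.coatom y
  core₁ X hX hN := h.coreFree x X hN hX
  core₂ X hX hN := h.coreFree y X hN hX
  ne := h.ne hr
  iso := by
    obtain ⟨g, hg⟩ := h.exists_smul x y
    exact ⟨(Subgroup.equivSMul (MulAut.conj g) (stabilizer G x)).trans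
      (MulEquiv.subgroupCongr (by rw [stab_conj, hg]))⟩
  A₁_le := le_inf (Qi_le_stab x) (Qi_op_le_stab' hr)
  A₁_norm := h.op.stab_le_normalizer_Qi x
  A₁_max X hX hn := le_Qi_of_normal h.op hr (hX.trans inf_le_left) (hX.trans inf_le_right) hn
  B₁_le := le_inf (Qi_le_stab' hr) (Qi_le_stab y)
  B₁_norm := h.stab_le_normalizer_Qi y
  B₁_max X hX hn := le_Qi_of_normal h hr (hX.trans inf_le_right) (hX.trans inf_le_left) hn
  A₂_le := by
    refine le_inf ?_ (Ko_le_Qi hr)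
    intro g hg
    rw [mem_Qi_op]
    exact ⟨h.Ko_le_stab x hg, fun z hz => (mem_Qi.mp (Ko_le_Qi hz hg)).1⟩
  A₂_norm := h.stab_le_normalizer_Ko x
  A₂_ne := h1
  B₂_le := by
    refine le_inf (Ko_le_Qi (R := Op R) hr) ?_
    intro g hg
    rw [mem_Qi]
    refine ⟨h.op.Ko_le_stab y hg, fun z hz => (mem_Qi.mp (Ko_le_Qi (R := Op R) hz hg)).1⟩
  B₂_norm := h.op.stab_le_normalizer_Ko y
  B₂_ne := h2

/-- Thompson–Wielandt for the orbital. -/
theorem tw (h : WData G R) {x y : Ω} (hr : R x y) (h1 : (Ko R x : Subgroup G) ≠ ⊥)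
    (h2 : (Ko (Op R) y : Subgroup G) ≠ ⊥) :
    ∃ p : ℕ, p.Prime ∧ IsPGroup p (Ko R x : Subgroup G) ∧ IsPGroup p (Ko (Op R) y : Subgroup G) := by
  obtain ⟨p, hp, hP, -⟩ := Cfsg.Agent.Lib.TW.Cases.main (twData h hr h1 h2)
  exact ⟨p, hp, hP.to_le le_sup_left, hP.to_le le_sup_right⟩

end TW

variable [Finite G] [Finite Ω] {d : ℕ}

/-- **Key inclusion.** -/
theorem key_le (h : WData G R) (hout : ∀ x, Nat.card {y // R x y} = d)
    (hin : ∀ x, Nat.card {y // R y x} = d) (h6 : 6 ≤ d)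
    (halt : ∀ x, Induces (stabilizer G x) {y | R x y}) (a : Ω) :
    (Qi R a : Subgroup G) ≤ Qi (Op R) a := by
  classical
  by_contra hnot
  set Ψ : Set Ω := {y | R a y} with hΨ
  have hcΨ : Nat.card Ψ = d := hout a
  have h5 : 5 ≤ Nat.card Ψ := by omega
  have hPs : Pres (stabilizer G a) Ψ := pres_out h le_rfl
  have hX₀ : Pres (Qi R a : Subgroup G) Ψ := hPs.mono (Qi_le_stab a)
  have hnorm : ∀ m ∈ stabilizer G a, ∀ s ∈ (Qi R a : Subgroup G), m * s * m⁻¹ ∈ (Qi R a : Subgroup G) := by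
    intro m hm s hs
    exact (mem_normalizer_iff.mp (h.stab_le_normalizer_Qi a hm) s).mp hs
  have hind₀ : Induces (Qi R a : Subgroup G) Ψ := by
    rcases fixes_or_induces h5 hX₀ hPs (halt a) hnorm with hf | hi
    · exfalso
      apply hnot
      intro g hg
      rw [mem_Qi_op]
      exact ⟨(mem_Qi.mp hg).1, fun y hy => (mem_fixingSubgroup_iff G).mp (hf hg) y hy⟩
    · exact hi
  have hcA : ∀ n, n + 1 = d → n ! < Nat.card (Alt Ψ) := by
    intro n hn
    have h2 := card_Alt (P := Ψ) (by omega)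
    rw [hcΨ] at h2
    have h3 := factorial_pred_lt d (by omega)
    rw [show d - 1 = n by omega] at h3
    omega
  -- first descent
  letI : Fintype {y // R y a} := Fintype.ofFinite _
  let Q : {y // R y a} → Set Ω := fun y => Del {c | R y.1 c} a
  have hQc : ∀ y : {y // R y a}, Nat.card (Q y) + 1 = d := by
    intro y
    have := card_Del (P := {c | R y.1 c}) (y := a) y.2
    rw [this]
    exact hout y.1
  have hQP : ∀ y : {y // R y a}, Pres (Qi R a : Subgroup G) (Q y) := fun y =>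
    pres_del h (Qi_le_stab' y.2) (Qi_le_stab a)
  have hd1 := chain_descent h5 Q hX₀ hind₀ Finset.univ (fun i _ => hQP i)
    (fun i _ => hcA _ (hQc i))
  have hle1 : Zf (Qi R a) Q Finset.univ ≤ (Ko (Op R) a : Subgroup G) := by
    intro g hg
    rw [mem_Zf] at hg
    rw [mem_Ko]
    intro y hy
    rw [mem_Qi_op]
    refine ⟨(mem_Qi.mp hg.1).2 y hy, fun z hz => ?_⟩
    by_cases hza : z = a
    · rw [hza]; exact (mem_Qi.mp hg.1).1
    · exact (mem_fixingSubgroup_iff G).mp (hg.2 ⟨y, hy⟩ (Finset.mem_univ _)) z ⟨hz, hza⟩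
  have hind₁ : Induces (Ko (Op R) a : Subgroup G) Ψ := hd1.mono hle1
  have hne₁ : (Ko (Op R) a : Subgroup G) ≠ ⊥ := hind₁.ne_bot h5
  obtain ⟨y₀, hy₀⟩ := h.inn a
  have hKa : (Ko (Op R) a : Subgroup G) ≤ stabilizer G a := h.op.Ko_le_stab a
  have hPX₁ : Pres (Ko (Op R) a : Subgroup G) Ψ := hPs.mono hKa
  -- Thompson-Wielandt
  have hbot : (Ko R y₀ : Subgroup G) = ⊥ := by
    by_contra hne
    obtain ⟨p, hp, -, hP⟩ := tw h hy₀ hne hne₁
    haveI : Fact p.Prime := ⟨hp⟩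
    exact hind₁.not_isPGroup h5 hPX₁ hP
  -- second descent
  have hX₁Q : (Ko (Op R) a : Subgroup G) ≤ Qi (Op R) y₀ := Ko_le_Qi (R := Op R) hy₀
  letI : Fintype {c // R y₀ c} := Fintype.ofFinite _
  let Q' : {c // R y₀ c} → Set Ω := fun c => Del {z | R z c.1} y₀
  have hQc' : ∀ c : {c // R y₀ c}, Nat.card (Q' c) + 1 = d := by
    intro c
    have := card_Del (P := {z | R z c.1}) (y := y₀) c.2
    rw [this]
    exact hin c.1
  have hQP' : ∀ c : {c // R y₀ c}, Pres (Ko (Op R) a : Subgroup G) (Q' c) := by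
    intro c
    refine pres_del h.op (x := c.1) (y := y₀) ?_ ?_
    · exact hX₁Q.trans (Qi_op_le_stab' c.2)
    · exact hX₁Q.trans (Qi_le_stab y₀)
  have hd2 := chain_descent h5 Q' hPX₁ hind₁ Finset.univ (fun i _ => hQP' i)
    (fun i _ => hcA _ (hQc' i))
  have hle2 : Zf (Ko (Op R) a) Q' Finset.univ ≤ (Ko R y₀ : Subgroup G) := by
    intro g hg
    rw [mem_Zf] at hg
    rw [mem_Ko]
    intro c hc
    have hgQ := mem_Qi_op.mp (hX₁Q hg.1)
    rw [mem_Qi]
    refine ⟨hgQ.2 c hc, fun z hz => ?_⟩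
    by_cases hzy : z = y₀
    · rw [hzy]; exact hgQ.1
    · exact (mem_fixingSubgroup_iff G).mp (hg.2 ⟨c, hc⟩ (Finset.mem_univ _)) z ⟨hz, hzy⟩
  have hind₂ := hd2.mono hle2
  rw [hbot] at hind₂
  exact not_induces_bot h5 hind₂

/-- **Alternating action on the in-neighbours.** -/
theorem alt_in (h : WData G R) (hout : ∀ x, Nat.card {y // R x y} = d)
    (hin : ∀ x, Nat.card {y // R y x} = d) (h6 : 6 ≤ d)
    (halt : ∀ x, Induces (stabilizer G x) {y | R x y}) (a : Ω) :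
    Induces (stabilizer G a) {y | R y a} := by
  have hk := key_le h hout hin h6 halt a
  have hP₁ : Pres (stabilizer G a) {y | R a y} := pres_out h le_rfl
  have hP₂ : Pres (stabilizer G a) {y | R y a} := pres_in h le_rfl
  apply induces_of_card hP₂
  have h1 := card_ge hP₁ (halt a)
  have h2 := card_Alt (P := ({y | R a y} : Set Ω)) (by
    have : Nat.card ({y | R a y} : Set Ω) = d := hout a
    omega)
  have hc₁ : Nat.card ({y | R a y} : Set Ω) = d := hout a
  have hc₂ : Nat.card ({y | R y a} : Set Ω) = d := hin a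
  rw [hc₁] at h2
  rw [hc₂]
  have e1 : stabilizer G a ⊓ fixingSubgroup G {y | R y a} = Qi R a := rfl
  have e2 : stabilizer G a ⊓ fixingSubgroup G {y | R a y} = Qi (Op R) a := rfl
  rw [e1]
  rw [e2] at h1
  have h3 : Nat.card (Qi R a : Subgroup G) ≤ Nat.card (Qi (Op R) a : Subgroup G) :=
    Nat.card_mono (Set.toFinite _) hk
  calc d ! * Nat.card (Qi R a : Subgroup G) ≤ d ! * Nat.card (Qi (Op R) a : Subgroup G) :=
        Nat.mul_le_mul_left _ h3
    _ = 2 * (Nat.card (Alt ({y | R a y} : Set Ω)) * Nat.card (Qi (Op R) a : Subgroup G)) := by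
        rw [← h2]; ring
    _ ≤ 2 * Nat.card (stabilizer G a) := Nat.mul_le_mul_left _ h1

end Cfsg.Agent.Lib.Knapp.One
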