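import Mathlib

/-!
# Permutation-group facts for Knapp's theorem
-/

set_option autoImplicit false

namespace Cfsg.Agent.Lib.Knapp.Perm

open Equiv Equiv.Perm Subgroup
open scoped Nat

/-- The alternating group on a finite type (instance-free form). -/
noncomputable def Alt (P : Type*) [Finite P] : Subgroup (Perm P) :=
  letI := Fintype.ofFinite P
  letI := Classical.decEq P
  alternatingGroup P

theorem Alt_eq (P : Type*) [Finite P] [Fintype P] [DecidableEq P] : Alt P = alternatingGroup P := by
  unfold Alt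
  congr!

variable {P : Type*} [Finite P]

theorem mem_Alt_iff [Fintype P] [DecidableEq P] {σ : Perm P} : σ ∈ Alt P ↔ sign σ = 1 := by
  rw [Alt_eq, mem_alternatingGroup]

instance Alt_normal : (Alt P).Normal := by
  classical
  haveI := Fintype.ofFinite P
  rw [Alt_eq]
  infer_instance

theorem swap_mul_swap_mem_Alt [DecidableEq P] {a b c d : P} (h1 : a ≠ b) (h2 : c ≠ d) :
    swap a b * swap c d ∈ Alt P := by
  classical
  haveI := Fintype.ofFinite P
  rw [mem_Alt_iff, map_mul, sign_swap h1, sign_swap h2]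
  rfl

/-- The centraliser of the alternating group in the symmetric group is trivial. -/
theorem eq_one_of_comm_Alt (h4 : 4 ≤ Nat.card P) {x : Perm P} (hx : ∀ σ ∈ Alt P, σ * x = x * σ) :
    x = 1 := by
  classical
  haveI := Fintype.ofFinite P
  by_contra hne
  obtain ⟨p, hp⟩ : ∃ p, x p ≠ p := by
    by_contra hcon
    push Not at hcon
    exact hne (Equiv.ext hcon)
  set q := x p with hq
  have hcard : 1 < (({p, q} : Finset P)ᶜ).card := by
    rw [Finset.card_compl]
    have : ({p, q} : Finset P).card ≤ 2 := Finset.card_le_two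
    rw [Nat.card_eq_fintype_card] at h4
    omega
  obtain ⟨r, hr, s, hs, hrs⟩ := Finset.one_lt_card.mp hcard
  simp only [Finset.mem_compl, Finset.mem_insert, Finset.mem_singleton, not_or] at hr hs
  have hτ : swap p r * swap r s ∈ Alt P :=
    swap_mul_swap_mem_Alt (Ne.symm hr.1) hrs
  have h1 := hx _ hτ
  have h2 := congrArg (fun f : Perm P => f p) h1
  simp only [Perm.mul_apply] at h2
  have e1 : swap r s p = p := swap_apply_of_ne_of_ne (Ne.symm hr.1) (Ne.symm hs.1)
  rw [e1, swap_apply_left, ← hq] at h2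
  have e2 : swap r s q = q := swap_apply_of_ne_of_ne (Ne.symm hr.2) (Ne.symm hs.2)
  have e3 : swap p r q = q := swap_apply_of_ne_of_ne hp (Ne.symm hr.2)
  rw [e2, e3] at h2
  exact hr.1 (x.injective (h2.symm.trans hq)) 

/-- A subgroup normalised by the alternating group (degree ≥ 5) is trivial or contains it. -/
theorem eq_bot_or_Alt_le (h5 : 5 ≤ Nat.card P) (X : Subgroup (Perm P))
    (hn : ∀ σ ∈ Alt P, ∀ x ∈ X, σ * x * σ⁻¹ ∈ X) : X = ⊥ ∨ Alt P ≤ X := by
  classical
  haveI := Fintype.ofFinite P
  haveI hs : IsSimpleGroup (alternatingGroup P) := alternatingGroup.isSimpleGroup h5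
  rw [Alt_eq] at *
  let X₀ : Subgroup (alternatingGroup P) := X.subgroupOf (alternatingGroup P)
  haveI hX₀ : X₀.Normal := by
    refine ⟨fun y hy s => ?_⟩
    rw [Subgroup.mem_subgroupOf] at hy ⊢
    simpa using hn s s.2 y hy
  rcases hs.eq_bot_or_eq_top_of_normal X₀ hX₀ with h | h
  · left
    rw [eq_bot_iff]
    intro x hx
    rw [mem_bot]
    have key : ∀ σ ∈ alternatingGroup P, σ * x = x * σ := by
      intro σ hσ
      have h1 : σ * x * σ⁻¹ * x⁻¹ ∈ X := mul_mem (hn σ hσ x hx) (inv_mem hx)
      have h2 : σ * x * σ⁻¹ * x⁻¹ ∈ alternatingGroup P := by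
        have : σ * (x * σ⁻¹ * x⁻¹) = σ * x * σ⁻¹ * x⁻¹ := by group
        rw [← this]
        refine mul_mem hσ ?_
        exact (inferInstance : (alternatingGroup P).Normal).conj_mem _ (inv_mem hσ) x
      have h3 : (⟨_, h2⟩ : alternatingGroup P) ∈ X₀ := by
        rw [Subgroup.mem_subgroupOf]; exact h1
      rw [h, mem_bot] at h3
      have h4 := congrArg Subtype.val h3
      simp only [coe_one] at h4
      have h5' : σ * x * σ⁻¹ = x := by
        have := mul_inv_eq_one.mp h4
        exact this
      exact mul_inv_eq_iff_eq_mul.mp h5'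
    exact eq_one_of_comm_Alt (by omega) (fun σ hσ => key σ (by rwa [Alt_eq] at hσ))
  · right
    intro σ hσ
    have : (⟨σ, hσ⟩ : alternatingGroup P) ∈ X₀ := by rw [h]; trivial
    rwa [Subgroup.mem_subgroupOf] at this

/-- The alternating group (degree ≥ 5) is not commutative. -/
theorem Alt_not_comm (h5 : 5 ≤ Nat.card P) : ¬ ∀ α ∈ Alt P, ∀ β ∈ Alt P, α * β = β * α := by
  classical
  haveI := Fintype.ofFinite P
  intro hc
  have h2 := commutator_alternatingGroup_eq_top (α := P) h5
  have hs : IsSimpleGroup (alternatingGroup P) := alternatingGroup.isSimpleGroup h5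
  rw [Alt_eq] at hc
  have hcomm : commutator (alternatingGroup P) = ⊥ := by
    rw [commutator_eq_bot_iff_center_eq_top, eq_top_iff]
    rintro ⟨a, ha⟩ -
    rw [Subgroup.mem_center_iff]
    rintro ⟨b, hb⟩
    exact Subtype.ext (hc b hb a ha)
  rw [hcomm] at h2
  exact bot_ne_top h2

theorem card_Alt (h2 : 2 ≤ Nat.card P) : 2 * Nat.card (Alt P) = (Nat.card P)! := by
  classical
  haveI := Fintype.ofFinite P
  haveI : Nontrivial P := by
    rw [← Finite.one_lt_card_iff_nontrivial]; omega
  rw [Alt_eq, two_mul_nat_card_alternatingGroup, Nat.card_perm]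

/-- A subgroup of order at least half of the whole contains the alternating group. -/
theorem Alt_le_of_card {X : Subgroup (Perm P)} (h : (Nat.card P)! ≤ 2 * Nat.card X) : Alt P ≤ X := by
  classical
  haveI := Fintype.ofFinite P
  rw [Alt_eq]
  apply alternatingGroup_le_of_index_le_two
  have h1 := Subgroup.card_mul_index X
  rw [Nat.card_perm] at h1
  have hpos : 0 < Nat.card X := Nat.card_pos
  by_contra hcon
  push Not at hcon
  have : 3 * Nat.card X ≤ Nat.card X * X.index := by nlinarith
  omega

theorem eq_Alt_or_eq_top {X : Subgroup (Perm P)} (h : Alt P ≤ X) : X = Alt P ∨ X = ⊤ := by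
  classical
  haveI := Fintype.ofFinite P
  by_cases hX : X ≤ Alt P
  · exact Or.inl (le_antisymm hX h)
  · right
    obtain ⟨x, hx, hxA⟩ := SetLike.not_le_iff_exists.mp hX
    rw [eq_top_iff]
    intro y _
    by_cases hy : y ∈ Alt P
    · exact h hy
    · rw [mem_Alt_iff] at hy hxA
      have hx' : sign x = -1 := (Int.units_eq_one_or _).resolve_left hxA
      have hy' : sign y = -1 := (Int.units_eq_one_or _).resolve_left hy
      have : y * x⁻¹ ∈ Alt P := by
        rw [mem_Alt_iff, map_mul, map_inv, hx', hy']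
        rfl
      have := mul_mem (h this) hx
      simpa using this

theorem exists_Alt_smul_eq (h3 : 3 ≤ Nat.card P) (x y : P) : ∃ σ ∈ Alt P, σ x = y := by
  classical
  haveI := Fintype.ofFinite P
  by_cases hxy : x = y
  · exact ⟨1, one_mem _, by simp [hxy]⟩
  · have hcard : 0 < (({x, y} : Finset P)ᶜ).card := by
      rw [Finset.card_compl]
      have : ({x, y} : Finset P).card ≤ 2 := Finset.card_le_two
      rw [Nat.card_eq_fintype_card] at h3
      omega
    obtain ⟨r, hr⟩ := Finset.card_pos.mp hcard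
    simp only [Finset.mem_compl, Finset.mem_insert, Finset.mem_singleton, not_or] at hr
    refine ⟨swap x y * swap r y, swap_mul_swap_mem_Alt hxy hr.2, ?_⟩
    simp only [Perm.mul_apply]
    rw [swap_apply_of_ne_of_ne (Ne.symm hr.1) hxy, swap_apply_left]

/-- 2-transitivity of the alternating group of degree at least 4. -/
theorem exists_Alt_smul_eq₂ (h4 : 4 ≤ Nat.card P) {x y x' y' : P} (hxy : x ≠ y) (hxy' : x' ≠ y') :
    ∃ σ ∈ Alt P, σ x = x' ∧ σ y = y' := by
  classical
  haveI := Fintype.ofFinite P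
  have hpre := alternatingGroup.isMultiplyPretransitive P
  have hle : 2 ≤ Nat.card P - 2 := by omega
  have h2 : MulAction.IsMultiplyPretransitive (alternatingGroup P) P 2 :=
    MulAction.isMultiplyPretransitive_of_le (n := Nat.card P - 2) hle (by omega)
  obtain ⟨g, hg⟩ := h2.exists_smul_eq
    (⟨![x, y], by
      intro i j hij
      fin_cases i <;> fin_cases j <;> simp_all⟩ : Fin 2 ↪ P)
    (⟨![x', y'], by
      intro i j hij
      fin_cases i <;> fin_cases j <;> simp_all⟩ : Fin 2 ↪ P)
  refine ⟨g.1, by rw [Alt_eq]; exact g.2, ?_, ?_⟩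
  · exact DFunLike.congr_fun hg 0
  · exact DFunLike.congr_fun hg 1

theorem not_isPGroup_Alt (h5 : 5 ≤ Nat.card P) (p : ℕ) [Fact p.Prime] : ¬ IsPGroup p (Alt P) := by
  classical
  haveI := Fintype.ofFinite P
  intro hp
  rw [Alt_eq] at hp
  haveI hs : IsSimpleGroup (alternatingGroup P) := alternatingGroup.isSimpleGroup h5
  haveI : Nontrivial (alternatingGroup P) := inferInstance
  have h1 := hp.center_nontrivial
  rw [alternatingGroup.center_eq_bot (by omega)] at h1
  exact not_nontrivial_iff_subsingleton.mpr (inferInstance : Subsingleton (⊥ : Subgroup (alternatingGroup P))) h1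

theorem index_Alt (h2 : 2 ≤ Nat.card P) : (Alt P).index = 2 := by
  classical
  haveI := Fintype.ofFinite P
  haveI : Nontrivial P := by
    rw [← Finite.one_lt_card_iff_nontrivial]; omega
  rw [Alt_eq]
  exact alternatingGroup.index_eq_two

/-- Numerics. -/
theorem factorial_pred_lt (d : ℕ) (h : 3 ≤ d) : (d - 1)! * 2 < d ! := by
  obtain ⟨n, rfl⟩ : ∃ n, d = n + 1 := ⟨d - 1, by omega⟩
  rw [Nat.add_sub_cancel, Nat.factorial_succ]
  have : 0 < n ! := Nat.factorial_pos n
  nlinarith

theorem two_pow_lt_factorial (d : ℕ) (h : 6 ≤ d) : 2 ^ d < (d - 1)! := by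
  induction d, h using Nat.le_induction with
  | base => decide
  | succ n hn ih =>
    obtain ⟨m, rfl⟩ : ∃ m, n = m + 1 := ⟨n - 1, by omega⟩
    simp only [Nat.add_sub_cancel] at *
    rw [Nat.factorial_succ, pow_succ]
    have : 2 ≤ m + 1 := by omega
    nlinarith

end Cfsg.Agent.Lib.Knapp.Perm
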