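import Cfsg.Agent.Lib.Knapp.Two
import Cfsg.Agent.Lib.Knapp.Assemble

/-!
# Third stage: the structure of the point stabilizer
-/

set_option autoImplicit false

namespace Cfsg.Agent.Lib.Knapp.Three

open Equiv Subgroup MulAction
open Cfsg.Agent.Lib.Knapp.Perm Cfsg.Agent.Lib.Knapp.Act Cfsg.Agent.Lib.Knapp.Chain
open Cfsg.Agent.Lib.Knapp.One Cfsg.Agent.Lib.Knapp.Two Cfsg.Agent.Lib.Knapp.Assemble
open Cfsg.Agent.Lib.WBound Cfsg.Agent.Lib.Subnormal.Basic
open scoped Nat Pointwise

variable {G Ω : Type*} [Group G] [MulAction G Ω] [Finite G] [Finite Ω]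
variable {R : Ω → Ω → Prop} {d : ℕ}

/-- The centraliser of `K_a` in `G_a`. -/
def Cent (R : Ω → Ω → Prop) (a : Ω) : Subgroup G :=
  stabilizer G a ⊓ centralizer ((Qi R a : Subgroup G) : Set G)

theorem mem_Cent {a : Ω} {g : G} :
    g ∈ (Cent R a : Subgroup G) ↔ g ∈ stabilizer G a ∧ ∀ k ∈ (Qi R a : Subgroup G), k * g = g * k := by
  rw [Cent, mem_inf, Subgroup.mem_centralizer_iff]
  rfl

section

variable (h : SymHyp G R d)
include h

theorem K_comm {x y : Ω} (hr : R x y) {k k' : G} (hk : k ∈ (Qi R x : Subgroup G))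
    (hk' : k' ∈ (Qi R y : Subgroup G)) : k * k' = k' * k := by
  have hu : k * k' * k⁻¹ * k'⁻¹ ∈ (Qi R x : Subgroup G) ⊓ Qi R y := by
    refine mem_inf.mpr ⟨?_, ?_⟩
    · have h1 := h.K_norm (Qi_le_stab' hr hk') (inv_mem hk)
      have h2 := mul_mem hk h1
      have e : k * (k' * k⁻¹ * k'⁻¹) = k * k' * k⁻¹ * k'⁻¹ := by group
      rwa [e] at h2
    · have h1 := h.K_norm (h.K_le_stab_out hr hk) hk'
      exact mul_mem h1 (inv_mem hk')
  rw [h.Q_bot hr, mem_bot] at hu
  exact mul_inv_eq_iff_eq_mul.mp (mul_inv_eq_one.mp hu)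

theorem K_le_Cent {a c : Ω} (hr : R a c) : (Qi R c : Subgroup G) ≤ Cent R a := by
  intro g hg
  rw [mem_Cent]
  exact ⟨Qi_le_stab' hr hg, fun k hk => K_comm h hr hk hg⟩

theorem Cent_normal {a : Ω} {m x : G} (hm : m ∈ stabilizer G a) (hx : x ∈ (Cent R a : Subgroup G)) :
    m * x * m⁻¹ ∈ (Cent R a : Subgroup G) := by
  rw [mem_Cent] at hx ⊢
  refine ⟨mul_mem (mul_mem hm hx.1) (inv_mem hm), fun k hk => ?_⟩
  have h1 : m⁻¹ * k * m ∈ (Qi R a : Subgroup G) := by
    have := h.K_norm (inv_mem hm) hk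
    simpa using this
  have h2 := hx.2 _ h1
  calc k * (m * x * m⁻¹) = m * (m⁻¹ * k * m * x) * m⁻¹ := by group
    _ = m * (x * (m⁻¹ * k * m)) * m⁻¹ := by rw [h2]
    _ = _ := by group

theorem Cent_inf_K (a : Ω) : (Cent R a : Subgroup G) ⊓ Qi R a = ⊥ := by
  obtain ⟨b, hab⟩ := h.wd.out a
  obtain ⟨g, hg⟩ := h.wd.exists_smul a b
  rw [eq_bot_iff]
  intro z hz
  have hz' := mem_inf.mp hz
  have hzC := (mem_Cent.mp hz'.1).2
  have hz'K : g * z * g⁻¹ ∈ (Qi R b : Subgroup G) := by
    have := h.conj_mem_K g hz'.2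
    rwa [hg] at this
  have hcomm : ∀ n ∈ (Qi R b : Subgroup G), n * (g * z * g⁻¹) = (g * z * g⁻¹) * n := by
    intro n hn
    have h1 : g⁻¹ * n * g ∈ (Qi R a : Subgroup G) := by
      have := h.conj_mem_K g⁻¹ hn
      rw [← hg, inv_smul_smul] at this
      simpa using this
    have h2 := hzC _ h1
    calc n * (g * z * g⁻¹) = g * (g⁻¹ * n * g * z) * g⁻¹ := by group
      _ = g * (z * (g⁻¹ * n * g)) * g⁻¹ := by rw [h2]
      _ = _ := by group
  have hKP : Pres (Qi R b : Subgroup G) (Del {c | R a c} b) :=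
    pres_del h.wd (Qi_le_stab' hab) (Qi_le_stab b)
  have hKI : Induces (Qi R b : Subgroup G) (Del {c | R a c} b) :=
    h.cover hab (Qi_le_stab' hab) (Qi_le_stab b) (fun m _ hm s hs => h.K_norm hm hs)
      (h.not_le_of_arc' hab)
  have hf := fix_of_comm hKP hKI (by have := h.five_delOut hab; omega) hz'K hcomm
  have hza : g * z * g⁻¹ ∈ (Qi R a : Subgroup G) := by
    rw [h.mem_K_out]
    refine ⟨Qi_le_stab' hab hz'K, fun y hy => ?_⟩
    by_cases hyb : y = b
    · rw [hyb]; exact Qi_le_stab b hz'K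
    · exact (mem_fixingSubgroup_iff G).mp hf y ⟨hy, hyb⟩
  have hbot : g * z * g⁻¹ ∈ (Qi R a : Subgroup G) ⊓ Qi R b := mem_inf.mpr ⟨hza, hz'K⟩
  rw [h.Q_bot hab, mem_bot] at hbot
  rw [mem_bot]
  have := (mul_inv_eq_one.mp hbot)
  have e2 : z = 1 := by
    have h3 : g * z = g := this
    simpa using h3
  exact e2

theorem Cent_induces (a : Ω) : Induces (Cent R a : Subgroup G) {c | R a c} := by
  obtain ⟨b, hab⟩ := h.wd.out a
  have hP : Pres (stabilizer G a) {c | R a c} := pres_out h.wd le_rfl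
  have h5 : 5 ≤ Nat.card ({c | R a c} : Set Ω) := by
    have : Nat.card ({c | R a c} : Set Ω) = d := h.out a
    have := h.d6
    omega
  have hle : (Cent R a : Subgroup G) ≤ stabilizer G a := inf_le_left
  rcases fixes_or_induces h5 (hP.mono hle) hP (h.altOut a)
    (fun m hm s hs => Cent_normal h hm hs) with hf | hi
  · exfalso
    apply h.not_le_of_arc' hab
    intro g hg
    rw [h.mem_K_out]
    refine ⟨Qi_le_stab' hab hg, fun y hy => ?_⟩
    exact (mem_fixingSubgroup_iff G).mp (hf (K_le_Cent h hab hg)) y hy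
  · exact hi

theorem pres_Kb_del {a b : Ω} (hab : R a b) : Pres (Qi R b : Subgroup G) (Del {c | R a c} b) :=
  pres_del h.wd (Qi_le_stab' hab) (Qi_le_stab b)

theorem ind_Kb_del {a b : Ω} (hab : R a b) : Induces (Qi R b : Subgroup G) (Del {c | R a c} b) :=
  h.cover hab (Qi_le_stab' hab) (Qi_le_stab b) (fun m _ hm s hs => h.K_norm hm hs)
      (h.not_le_of_arc' hab)

theorem inj_Kb_del {a b : Ω} (hab : R a b)
    (hp : Pres (Qi R b : Subgroup G) (Del {c | R a c} b)) :
    Function.Injective (actP (Qi R b : Subgroup G) (Del {c | R a c} b) hp) := by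
  rw [injective_iff_map_eq_one]
  intro k hk
  have hf := (mem_ker_actP hp k).mp hk
  have hza : (k : G) ∈ (Qi R a : Subgroup G) := by
    rw [h.mem_K_out]
    refine ⟨Qi_le_stab' hab k.2, fun y hy => ?_⟩
    by_cases hyb : y = b
    · rw [hyb]; exact Qi_le_stab b k.2
    · exact (mem_fixingSubgroup_iff G).mp hf y ⟨hy, hyb⟩
  have hbot : (k : G) ∈ (Qi R a : Subgroup G) ⊓ Qi R b := mem_inf.mpr ⟨hza, k.2⟩
  rw [h.Q_bot hab, mem_bot] at hbot
  exact Subtype.ext hbot

/-- `K_a ≅ K_b`. -/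
theorem equiv_K (a b : Ω) :
    Nonempty ((Qi R a : Subgroup G) ≃* (Qi R b : Subgroup G)) := by
  obtain ⟨g, hg⟩ := h.wd.exists_smul a b
  exact ⟨(Subgroup.equivSMul (MulAut.conj g) (Qi R a : Subgroup G)).trans
      (MulEquiv.subgroupCongr (by rw [h.wd.Qi_conj, hg]))⟩

/-- `K_a` is isomorphic to the group induced by `K_b` on `Out a ∖ {b}`. -/
theorem equiv_X {a b : Ω} (hab : R a b) (hp : Pres (Qi R b : Subgroup G) (Del {c | R a c} b)) :
    Nonempty ((Qi R a : Subgroup G) ≃* (actP (Qi R b : Subgroup G) (Del {c | R a c} b) hp).range) := by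
  obtain ⟨e⟩ := equiv_K h a b
  exact ⟨e.trans (MonoidHom.ofInjective (inj_Kb_del h hab hp))⟩

end

section

variable (h : SymHyp G R d)
include h

/-- The kernel of the action on the out-neighbours. -/
theorem ker_eq {a : Ω} (hP : Pres (stabilizer G a) {c | R a c}) :
    (actP (stabilizer G a) _ hP).ker = (Qi R a : Subgroup G).subgroupOf (stabilizer G a) := by
  ext g
  rw [mem_ker_actP, mem_subgroupOf, h.mem_K_out, mem_fixingSubgroup_iff]
  exact ⟨fun e => ⟨g.2, e⟩, fun e => e.2⟩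

theorem inf_ker {a : Ω} (hP : Pres (stabilizer G a) {c | R a c}) :
    (actP (stabilizer G a) _ hP).ker ⊓ (Cent R a : Subgroup G).subgroupOf (stabilizer G a) = ⊥ := by
  rw [ker_eq h hP, eq_bot_iff]
  intro g hg
  have hg' := mem_inf.mp hg
  rw [mem_subgroupOf] at hg'
  have : (g : G) ∈ (Cent R a : Subgroup G) ⊓ Qi R a := mem_inf.mpr ⟨hg'.2, hg'.1⟩
  rw [Cent_inf_K h, mem_bot] at this
  exact Subtype.ext this

theorem comm_ker {a : Ω} (hP : Pres (stabilizer G a) {c | R a c}) :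
    ∀ k ∈ (actP (stabilizer G a) _ hP).ker, ∀ c ∈ (Cent R a : Subgroup G).subgroupOf (stabilizer G a),
      k * c = c * k := by
  rw [ker_eq h hP]
  intro k hk c hc
  rw [mem_subgroupOf] at hk hc
  exact Subtype.ext ((mem_Cent.mp hc).2 _ hk)

theorem normal_C (a : Ω) : ((Cent R a : Subgroup G).subgroupOf (stabilizer G a)).Normal := by
  refine ⟨fun x hx g => ?_⟩
  rw [mem_subgroupOf] at hx ⊢
  exact Cent_normal h g.2 hx

theorem Alt_le_map {a : Ω} (hP : Pres (stabilizer G a) {c | R a c}) :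
    Alt ({c | R a c} : Set Ω) ≤
      ((Cent R a : Subgroup G).subgroupOf (stabilizer G a)).map (actP (stabilizer G a) _ hP) := by
  intro σ hσ
  obtain ⟨x, hx, e⟩ := Cent_induces h a σ hσ
  refine ⟨⟨x, (mem_Cent.mp hx).1⟩, mem_subgroupOf.mpr hx, ?_⟩
  ext y
  exact e y

theorem sup_of_map {a : Ω} (hP : Pres (stabilizer G a) {c | R a c})
    (hm : ((Cent R a : Subgroup G).subgroupOf (stabilizer G a)).map (actP (stabilizer G a) _ hP) =
      (actP (stabilizer G a) _ hP).range) :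
    (actP (stabilizer G a) _ hP).ker ⊔ (Cent R a : Subgroup G).subgroupOf (stabilizer G a) = ⊤ := by
  rw [eq_top_iff]
  intro g _
  have h1 : actP (stabilizer G a) _ hP g ∈ (actP (stabilizer G a) _ hP).range := ⟨g, rfl⟩
  rw [← hm] at h1
  obtain ⟨c, hc, e⟩ := h1
  have h2 : g * c⁻¹ ∈ (actP (stabilizer G a) _ hP).ker := by
    rw [MonoidHom.mem_ker, map_mul, map_inv, ← e, mul_inv_cancel]
  have h3 : g * c⁻¹ * c ∈ (actP (stabilizer G a) _ hP).ker ⊔
      (Cent R a : Subgroup G).subgroupOf (stabilizer G a) :=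
    mul_mem (Subgroup.mem_sup_left h2) (Subgroup.mem_sup_right hc)
  simpa using h3

theorem card_Out (a : Ω) : Nat.card ({c | R a c} : Set Ω) = d := h.out a

/-- Elements of `G_a ∩ G_b` act evenly on `Out a` iff they act evenly on `Out a ∖ {b}`. -/
theorem even_del {a b : Ω} (hab : R a b) (hP : Pres (stabilizer G a) {c | R a c})
    {N : Subgroup G} (hNa : N ≤ stabilizer G a) (hNb : N ≤ stabilizer G b)
    (hN : Pres N (Del {c | R a c} b)) (x : N) :
    actP (stabilizer G a) _ hP ⟨x, hNa x.2⟩ ∈ Alt ({c | R a c} : Set Ω) ↔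
      actP N (Del {c | R a c} b) hN x ∈ Alt (Del {c | R a c} b : Set Ω) := by
  have := actP_mem_Alt_iff_del (hP.mono hNa) hab hNb x
  exact this

/-- If elements of `K_b` act evenly on `Out a`, then `K_b` induces exactly the alternating group. -/
theorem X_eq_Alt {a b : Ω} (hab : R a b) (hP : Pres (stabilizer G a) {c | R a c})
    (hp : Pres (Qi R b : Subgroup G) (Del {c | R a c} b))
    (heven : ∀ x (hx : x ∈ (Qi R b : Subgroup G)),
      actP (stabilizer G a) _ hP ⟨x, Qi_le_stab' hab hx⟩ ∈ Alt ({c | R a c} : Set Ω)) :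
    (actP (Qi R b : Subgroup G) (Del {c | R a c} b) hp).range = Alt (Del {c | R a c} b : Set Ω) := by
  apply le_antisymm
  · rintro _ ⟨k, rfl⟩
    exact (even_del h hab hP (Qi_le_stab' hab) (Qi_le_stab b) hp k).mp (heven k k.2)
  · exact Alt_le_range hp (ind_Kb_del h hab)

/-- **The third case.** -/
theorem third_case {a b : Ω} (hab : R a b) (hP : Pres (stabilizer G a) {c | R a c})
    (hrange : (actP (stabilizer G a) _ hP).range = ⊤)
    (hCalt : ((Cent R a : Subgroup G).subgroupOf (stabilizer G a)).map (actP (stabilizer G a) _ hP) =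
      Alt ({c | R a c} : Set Ω)) :
    Nonempty (stabilizer G a ≃* ((Equiv.Perm.sign.comp (MonoidHom.fst (Equiv.Perm (Fin d)) (Equiv.Perm (Fin (d - 1))))) *
         (Equiv.Perm.sign.comp (MonoidHom.snd (Equiv.Perm (Fin d)) (Equiv.Perm (Fin (d - 1)))))).ker) := by
  classical
  have h6 := h.d6
  set A : Subgroup G := stabilizer G a with hA
  set ph := actP A {c | R a c} hP with hph
  set Dp : Set Ω := Del {c | R a c} b with hDp
  set Dm : Set Ω := Del {c | R c b} a with hDm
  set Ka : Subgroup G := Qi R a with hKa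
  set Kb : Subgroup G := Qi R b with hKb
  set L : Subgroup G := A ⊓ stabilizer G b with hL
  have hLA : L ≤ A := inf_le_left
  have hLb : L ≤ stabilizer G b := inf_le_right
  have hKbA : Kb ≤ A := Qi_le_stab' hab
  have hKbL : Kb ≤ L := le_inf hKbA (Qi_le_stab b)
  have hKaA : Ka ≤ A := Qi_le_stab a
  have hKab : Ka ≤ stabilizer G b := h.K_le_stab_out hab
  have hKaL : Ka ≤ L := le_inf hKaA hKab
  have hCA : (Cent R a : Subgroup G) ≤ A := inf_le_left
  have hcDp : Nat.card Dp + 1 = d := h.card_delOut hab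
  have hcDm : Nat.card Dm + 1 = d := h.card_delIn hab
  have hcPsi : Nat.card ({c | R a c} : Set Ω) = d := h.out a
  -- even elements
  have hCeven : ∀ x (hx : x ∈ (Cent R a : Subgroup G)), ph ⟨x, hCA hx⟩ ∈ Alt ({c | R a c} : Set Ω) := by
    intro x hx
    rw [← hCalt]
    exact ⟨⟨x, hCA hx⟩, mem_subgroupOf.mpr hx, rfl⟩
  have hLDp : Pres L Dp := pres_del h.wd hLA hLb
  have hLDm : Pres L Dm := pres_del h.wd.op hLb hLA
  have hKbDp : Pres Kb Dp := pres_Kb_del h hab
  have hKaDm : Pres Ka Dm := pres_del h.wd.op hKab hKaA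
  have hXalt : (actP Kb Dp hKbDp).range = Alt Dp :=
    X_eq_Alt h hab hP hKbDp (fun x hx => hCeven x (K_le_Cent h hab hx))
  -- order of K_a
  have hcardKb : Nat.card Kb = Nat.card (Alt Dp) := by
    rw [← hXalt]
    exact Nat.card_congr (MonoidHom.ofInjective (inj_Kb_del h hab hKbDp)).toEquiv
  have hcardKa : Nat.card Ka = Nat.card Kb := h.card_K a b
  have h2Ka : 2 * Nat.card Ka = (d - 1)! := by
    rw [hcardKa, hcardKb, card_Alt (by omega), show Nat.card Dp = d - 1 by omega]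
  -- the action of K_a on Dm
  have hKaDmI : Induces Ka Dm :=
    h.cover' hab hKaA hKab (fun m hm _ s hs => h.K_norm hm hs) (h.not_le_of_arc hab)
  have hinjKa : Function.Injective (actP Ka Dm hKaDm) := by
    rw [injective_iff_map_eq_one]
    intro k hk
    have hf := (mem_ker_actP hKaDm k).mp hk
    have hzb : (k : G) ∈ Kb := (h.mem_K_iff_fix hab k.2).mpr hf
    have hbot : (k : G) ∈ (Qi R a : Subgroup G) ⊓ Qi R b := mem_inf.mpr ⟨k.2, hzb⟩
    rw [h.Q_bot hab, mem_bot] at hbot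
    exact Subtype.ext hbot
  have hXm : (actP Ka Dm hKaDm).range = Alt Dm := by
    symm
    apply Subgroup.eq_of_le_of_card_ge (Alt_le_range hKaDm hKaDmI)
    have e1 : Nat.card (actP Ka Dm hKaDm).range = Nat.card Ka :=
      (Nat.card_congr (MonoidHom.ofInjective hinjKa).toEquiv).symm
    have e2 := card_Alt (P := Dm) (by omega)
    rw [show Nat.card Dm = d - 1 by omega] at e2
    rw [e1]
    omega
  -- the supplement
  let LA : Subgroup A := L.subgroupOf A
  let CA : Subgroup A := (Cent R a : Subgroup G).subgroupOf A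
  haveI hCAn : CA.Normal := normal_C h a
  let eL : LA ≃* L := Subgroup.subgroupOfEquivOfLe hLA
  let f : LA →* Perm Dm := (actP L Dm hLDm).comp eL.toMonoidHom
  have hfapply : ∀ (x : LA) (y : Dm), ((f x y : Dm) : Ω) = ((x : A) : G) • (y : Ω) := fun x y => rfl
  have hsup : CA ⊔ LA = ⊤ := by
    rw [eq_top_iff]
    intro g _
    have hgb : (g : G) • b ∈ ({c | R a c} : Set Ω) := hP _ g.2 _ hab
    obtain ⟨c, hc, e⟩ := (Cent_induces h a).exists_smul (by omega) hab hgb
    have hcA : c ∈ A := hCA hc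
    have h1 : (⟨c, hcA⟩ : A) ∈ CA := mem_subgroupOf.mpr hc
    have h2 : (⟨c, hcA⟩ : A)⁻¹ * g ∈ LA := by
      rw [mem_subgroupOf]
      refine mem_inf.mpr ⟨mul_mem (inv_mem hcA) g.2, ?_⟩
      change (c⁻¹ * (g : G)) • b = b
      rw [mul_smul, ← e, inv_smul_smul]
    have h3 : (⟨c, hcA⟩ : A) * ((⟨c, hcA⟩ : A)⁻¹ * g) ∈ CA ⊔ LA :=
      mul_mem (Subgroup.mem_sup_left h1) (Subgroup.mem_sup_right h2)
    simpa using h3
  -- C ∩ L lies in K_b
  have hCL : ∀ x (hx : x ∈ (Cent R a : Subgroup G)) (hxb : x • b = b), x ∈ Kb := by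
    intro x hx hxb
    have hxL : x ∈ L := mem_inf.mpr ⟨hCA hx, hxb⟩
    have h1 := (even_del h hab hP hLA hLb hLDp ⟨x, hxL⟩).mp (hCeven x hx)
    rw [← hXalt] at h1
    obtain ⟨k, hk⟩ := h1
    have hk' : ∀ y, y ∈ Dp → (k : G) • y = x • y := by
      intro y hy
      exact congrArg (fun s : Perm Dp => ((s ⟨y, hy⟩ : Dp) : Ω)) hk
    have hkb : (k : G) • b = b := Qi_le_stab b k.2
    have hka : (k : G) • a = a := Qi_le_stab' hab k.2
    have hxa : x • a = a := hCA hx
    have hz : (k : G)⁻¹ * x ∈ Ka := by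
      rw [hKa, h.mem_K_out]
      refine ⟨?_, fun y hy => ?_⟩
      · rw [mul_smul, hxa, inv_smul_eq_iff, hka]
      · by_cases hyb : y = b
        · rw [hyb, mul_smul, hxb, inv_smul_eq_iff, hkb]
        · rw [mul_smul, inv_smul_eq_iff]
          exact (hk' y ⟨hy, hyb⟩).symm
    have hzC : (k : G)⁻¹ * x ∈ (Cent R a : Subgroup G) :=
      mul_mem (inv_mem (K_le_Cent h hab k.2)) hx
    have hbot : (k : G)⁻¹ * x ∈ (Cent R a : Subgroup G) ⊓ Qi R a := mem_inf.mpr ⟨hzC, hz⟩
    rw [Cent_inf_K h, mem_bot] at hbot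
    have : x = k := by
      have := inv_mul_eq_one.mp hbot
      exact this.symm
    rw [this]
    exact k.2
  have hf1 : ∀ x : LA, (x : A) ∈ CA → f x = 1 := by
    intro x hx
    have hxL : ((x : A) : G) ∈ L := mem_subgroupOf.mp x.2
    have hxb : ((x : A) : G) ∈ Kb :=
      hCL _ (mem_subgroupOf.mp hx) (mem_inf.mp hxL).2
    ext y
    rw [hfapply]
    simpa using (mem_Qi.mp hxb).2 y y.2.1
  obtain ⟨F, hF1, hF2⟩ := extend_hom CA LA hsup f hf1
  -- the key sign statement on `L`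
  have hkey : ∀ l : LA, ph l ∈ Alt ({c | R a c} : Set Ω) ↔ f l ∈ Alt Dm := by
    intro l
    set x : G := ((l : A) : G) with hx
    have hxL : x ∈ L := mem_subgroupOf.mp l.2
    have hxa : x • a = a := (mem_inf.mp hxL).1
    have hxb : x • b = b := (mem_inf.mp hxL).2
    constructor
    · intro hl
      have h1 := (even_del h hab hP hLA hLb hLDp ⟨x, hxL⟩).mp hl
      rw [← hXalt] at h1
      obtain ⟨k, hk⟩ := h1
      have hk' : ∀ y, y ∈ Dp → (k : G) • y = x • y := by
        intro y hy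
        exact congrArg (fun s : Perm Dp => ((s ⟨y, hy⟩ : Dp) : Ω)) hk
      have hkb : (k : G) • b = b := Qi_le_stab b k.2
      have hka : (k : G) • a = a := Qi_le_stab' hab k.2
      have hz : (k : G)⁻¹ * x ∈ Ka := by
        rw [hKa, h.mem_K_out]
        refine ⟨?_, fun y hy => ?_⟩
        · rw [mul_smul, hxa, inv_smul_eq_iff, hka]
        · by_cases hyb : y = b
          · rw [hyb, mul_smul, hxb, inv_smul_eq_iff, hkb]
          · rw [mul_smul, inv_smul_eq_iff]
            exact (hk' y ⟨hy, hyb⟩).symm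
      -- `x = k * z`, and `k` fixes `Dm`
      have he : f l = actP Ka Dm hKaDm ⟨_, hz⟩ := by
        ext y
        rw [hfapply]
        change x • (y : Ω) = ((k : G)⁻¹ * x) • (y : Ω)
        rw [mul_smul, eq_inv_smul_iff]
        have hzL : x • (y : Ω) ∈ Dm := hLDm x hxL y y.2
        -- `z` and `k` commute
        have hcm := K_comm h hab hz k.2
        have e3 : x = (k : G) * ((k : G)⁻¹ * x) := by group
        have e4 : (k : G) • x • (y : Ω) = x • (y : Ω) := (mem_Qi.mp k.2).2 _ hzL.1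
        exact e4
      rw [he, ← hXm]
      exact ⟨_, rfl⟩
    · intro hl
      rw [← hXm] at hl
      obtain ⟨k, hk⟩ := hl
      have hk' : ∀ y, y ∈ Dm → (k : G) • y = x • y := by
        intro y hy
        exact congrArg (fun s : Perm Dm => ((s ⟨y, hy⟩ : Dm) : Ω)) hk
      have hka : (k : G) • a = a := Qi_le_stab a k.2
      have hkb : (k : G) • b = b := hKab k.2
      have hz : (k : G)⁻¹ * x ∈ Kb := by
        rw [hKb, mem_Qi]
        refine ⟨?_, fun y hy => ?_⟩
        · rw [mul_smul, hxb, inv_smul_eq_iff, hkb]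
        · by_cases hya : y = a
          · rw [hya, mul_smul, hxa, inv_smul_eq_iff, hka]
          · rw [mul_smul, inv_smul_eq_iff]
            exact (hk' y ⟨hy, hya⟩).symm
      have he : ph l = ph ⟨_, hKbA hz⟩ := by
        ext y
        change x • (y : Ω) = ((k : G)⁻¹ * x) • (y : Ω)
        rw [mul_smul, eq_inv_smul_iff]
        have hzL : x • (y : Ω) ∈ ({c | R a c} : Set Ω) := hP x (hLA hxL) y y.2
        exact (h.mem_K_out.mp k.2).2 _ hzL
      rw [he]
      exact hCeven _ (K_le_Cent h hab hz)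
  have hsign : ∀ g, ph g ∈ Alt ({c | R a c} : Set Ω) ↔ F g ∈ Alt Dm := by
    intro g
    have hg : g ∈ CA ⊔ LA := by rw [hsup]; trivial
    obtain ⟨c, hc, l, hl, rfl⟩ := Subgroup.mem_sup_of_normal_left.mp hg
    have h1 : ph c ∈ Alt ({c | R a c} : Set Ω) := hCeven _ (mem_subgroupOf.mp hc)
    rw [map_mul, map_mul, hF2 c hc, one_mul, Subgroup.mul_mem_cancel_left _ h1]
    have := hkey ⟨l, hl⟩
    rw [hF1 ⟨l, hl⟩]
    exact this
  have hinj : ∀ g, ph g = 1 → F g = 1 → g = 1 := by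
    intro g hg1 hg2
    have hgK : (g : G) ∈ Ka := by
      have : g ∈ ph.ker := hg1
      rw [hph, ker_eq h hP, mem_subgroupOf] at this
      exact this
    have hgL : g ∈ LA := mem_subgroupOf.mpr (hKaL hgK)
    have h3 : f ⟨g, hgL⟩ = 1 := by rw [← hF1 ⟨g, hgL⟩]; exact hg2
    have hgb : (g : G) ∈ Kb := by
      refine (h.mem_K_iff_fix hab hgK).mpr ?_
      rw [mem_fixingSubgroup_iff]
      intro y hy
      have := congrArg (fun s : Perm Dm => ((s ⟨y, hy⟩ : Dm) : Ω)) h3
      exact this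
    have hbot : (g : G) ∈ (Qi R a : Subgroup G) ⊓ Qi R b := mem_inf.mpr ⟨hgK, hgb⟩
    rw [h.Q_bot hab, mem_bot] at hbot
    exact Subtype.ext hbot
  have hcard : 2 * Nat.card A = d ! * (d - 1)! := by
    have h1 := card_range_mul hP
    have e1 : A ⊓ fixingSubgroup G ({c | R a c} : Set Ω) = Ka := (h.keq a).symm
    rw [e1, hrange] at h1
    have e2 : Nat.card (⊤ : Subgroup (Perm ({c | R a c} : Set Ω))) = d ! := by
      rw [Nat.card_congr Subgroup.topEquiv.toEquiv, Nat.card_perm, hcPsi]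
    rw [e2] at h1
    rw [← h1, ← h2Ka]
    ring
  exact kerSign ph F hcPsi (by omega) hinj hsign hcard (by omega)

/-- **The structure theorem.** -/
theorem structure_main {a b : Ω} (hab : R a b) (hP : Pres (stabilizer G a) {c | R a c}) :
    ((actP (stabilizer G a) _ hP).range.index = 2 ∧
      Nonempty (stabilizer G a ≃* alternatingGroup (Fin d) × alternatingGroup (Fin (d - 1)))) ∨
    ((actP (stabilizer G a) _ hP).range = ⊤ ∧
      (Nonempty (stabilizer G a ≃* Equiv.Perm (Fin d) × Equiv.Perm (Fin (d - 1))) ∨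
       Nonempty (stabilizer G a ≃* Equiv.Perm (Fin d) × alternatingGroup (Fin (d - 1))) ∨
       Nonempty (stabilizer G a ≃* ((Equiv.Perm.sign.comp (MonoidHom.fst (Equiv.Perm (Fin d)) (Equiv.Perm (Fin (d - 1))))) *
         (Equiv.Perm.sign.comp (MonoidHom.snd (Equiv.Perm (Fin d)) (Equiv.Perm (Fin (d - 1)))))).ker))) := by
  classical
  have h6 := h.d6
  have hcDp : Nat.card (Del {c | R a c} b) + 1 = d := h.card_delOut hab
  have hcDp' : Nat.card (Del {c | R a c} b) = d - 1 := by omega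
  have hcPsi : Nat.card ({c | R a c} : Set Ω) = d := h.out a
  have hp := pres_Kb_del h hab
  have hX : Alt (Del {c | R a c} b : Set Ω) ≤ (actP (Qi R b : Subgroup G) _ hp).range :=
    Alt_le_range hp (ind_Kb_del h hab)
  obtain ⟨eX⟩ := equiv_X h hab hp
  have eK : Nonempty ((actP (stabilizer G a) _ hP).ker ≃* (actP (Qi R b : Subgroup G) _ hp).range) := by
    rw [ker_eq h hP]
    exact ⟨(Subgroup.subgroupOfEquivOfLe (Qi_le_stab a)).trans eX⟩
  obtain ⟨eK⟩ := eK
  haveI hCn := normal_C h a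
  have hinf := inf_ker h hP
  have hcomm := comm_ker h hP
  have hCmap := Alt_le_map h hP
  obtain ⟨e2⟩ := equivMap (actP (stabilizer G a) _ hP)
    ((Cent R a : Subgroup G).subgroupOf (stabilizer G a)) hinf
  by_cases hr : (actP (stabilizer G a) _ hP).range = ⊤
  · right
    refine ⟨hr, ?_⟩
    by_cases hC : ((Cent R a : Subgroup G).subgroupOf (stabilizer G a)).map (actP (stabilizer G a) _ hP) = ⊤
    · obtain ⟨e1⟩ := direct _ _ hcomm hinf (sup_of_map h hP (by rw [hC, hr]))
      obtain ⟨e3⟩ := topFin hcPsi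
      have e23 := (e2.trans (MulEquiv.subgroupCongr hC)).trans e3
      rcases eq_Alt_or_eq_top hX with hXa | hXt
      · right; left
        obtain ⟨e4⟩ := altFin hcDp'
        exact ⟨e1.trans (MulEquiv.prodCongr e23 (eK.trans ((MulEquiv.subgroupCongr hXa).trans e4)))⟩
      · left
        obtain ⟨e4⟩ := topFin hcDp'
        exact ⟨e1.trans (MulEquiv.prodCongr e23 (eK.trans ((MulEquiv.subgroupCongr hXt).trans e4)))⟩
    · right; right
      exact third_case h hab hP hr ((eq_Alt_or_eq_top hCmap).resolve_right hC)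
  · left
    have hra := (eq_Alt_or_eq_top (Alt_le_range hP (h.altOut a))).resolve_right hr
    refine ⟨by rw [hra]; exact index_Alt (by omega), ?_⟩
    have hC : ((Cent R a : Subgroup G).subgroupOf (stabilizer G a)).map (actP (stabilizer G a) _ hP) =
        Alt ({c | R a c} : Set Ω) := by
      apply le_antisymm _ hCmap
      rw [← hra, MonoidHom.range_eq_map]
      exact Subgroup.map_mono le_top
    obtain ⟨e1⟩ := direct _ _ hcomm hinf (sup_of_map h hP (by rw [hC, hra]))
    obtain ⟨e3⟩ := altFin hcPsi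
    obtain ⟨e4⟩ := altFin hcDp'
    have hXa := X_eq_Alt h hab hP hp (fun x hx => by rw [← hra]; exact ⟨_, rfl⟩)
    exact ⟨e1.trans (MulEquiv.prodCongr ((e2.trans (MulEquiv.subgroupCongr hC)).trans e3)
      (eK.trans ((MulEquiv.subgroupCongr hXa).trans e4)))⟩

/-- The same for any set equal to the out-neighbourhood. -/
theorem structure_main' {a b : Ω} (hab : R a b) (Ψ : Set Ω) (hΨ : Ψ = {c | R a c})
    (hP : Pres (stabilizer G a) Ψ) :
    ((actP (stabilizer G a) _ hP).range.index = 2 ∧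
      Nonempty (stabilizer G a ≃* alternatingGroup (Fin d) × alternatingGroup (Fin (d - 1)))) ∨
    ((actP (stabilizer G a) _ hP).range = ⊤ ∧
      (Nonempty (stabilizer G a ≃* Equiv.Perm (Fin d) × Equiv.Perm (Fin (d - 1))) ∨
       Nonempty (stabilizer G a ≃* Equiv.Perm (Fin d) × alternatingGroup (Fin (d - 1))) ∨
       Nonempty (stabilizer G a ≃* ((Equiv.Perm.sign.comp (MonoidHom.fst (Equiv.Perm (Fin d)) (Equiv.Perm (Fin (d - 1))))) *
         (Equiv.Perm.sign.comp (MonoidHom.snd (Equiv.Perm (Fin d)) (Equiv.Perm (Fin (d - 1)))))).ker))) := by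
  subst hΨ
  exact structure_main h hab hP

end

/-- Transfer of the alternating action around the vertices. -/
theorem alt_transfer (hw : WData G R) {a : Ω} (ha : Induces (stabilizer G a) {y | R a y}) (x : Ω) :
    Induces (stabilizer G x) {y | R x y} := by
  classical
  obtain ⟨k, rfl⟩ := hw.exists_smul a x
  intro σ hσ
  have hmem1 : ∀ y, R (k • a) y → R a (k⁻¹ • y) := by
    intro y hy
    have := hw.inv k⁻¹ hy
    rwa [inv_smul_smul] at this
  have hmem2 : ∀ y, R a y → R (k • a) (k • y) := fun y hy => hw.inv k hy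
  let e : ({y | R (k • a) y} : Set Ω) ≃ ({y | R a y} : Set Ω) :=
    { toFun := fun y => ⟨k⁻¹ • y.1, hmem1 _ y.2⟩
      invFun := fun y => ⟨k • y.1, hmem2 _ y.2⟩
      left_inv := fun y => Subtype.ext (smul_inv_smul k y.1)
      right_inv := fun y => Subtype.ext (inv_smul_smul k y.1) }
  have hσ' : e.permCongr σ ∈ Alt ({y | R a y} : Set Ω) := by
    haveI : Fintype ({y | R a y} : Set Ω) := Fintype.ofFinite _
    haveI : Fintype ({y | R (k • a) y} : Set Ω) := Fintype.ofFinite _
    rw [mem_Alt_iff] at hσ ⊢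
    rw [Perm.sign_permCongr]
    exact hσ
  obtain ⟨g, hg, eg⟩ := ha _ hσ'
  refine ⟨k * g * k⁻¹, ?_, ?_⟩
  · rw [mem_stabilizer_iff] at hg ⊢
    simp [mul_smul, hg]
  · intro y
    have h1 := eg (e y)
    simp only [mul_smul]
    have h2 : ((e y : ({y | R a y} : Set Ω)) : Ω) = k⁻¹ • (y : Ω) := rfl
    rw [h2] at h1
    rw [h1]
    have h3 : e.permCongr σ (e y) = e (σ y) := by
      simp [Equiv.permCongr_apply]
    rw [h3]
    exact smul_inv_smul k _

end Cfsg.Agent.Lib.Knapp.Three
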