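import Cfsg.Agent.Lib.Knapp.One

/-!
# Second stage: `K_a ∩ K_b = 1`
-/

set_option autoImplicit false

namespace Cfsg.Agent.Lib.Knapp.Two

open Equiv Subgroup MulAction
open Cfsg.Agent.Lib.Knapp.Perm Cfsg.Agent.Lib.Knapp.Act Cfsg.Agent.Lib.Knapp.Chain
open Cfsg.Agent.Lib.Knapp.One
open Cfsg.Agent.Lib.WBound Cfsg.Agent.Lib.Subnormal.Basic
open scoped Nat Pointwise

variable {G Ω : Type*} [Group G] [MulAction G Ω] [Finite G] [Finite Ω]

/-- The symmetric hypotheses. -/
structure SymHyp (G : Type*) {Ω : Type*} [Group G] [MulAction G Ω] [Finite Ω]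
    (R : Ω → Ω → Prop) (d : ℕ) : Prop where
  wd : WData G R
  out : ∀ x, Nat.card {y // R x y} = d
  inn : ∀ x, Nat.card {y // R y x} = d
  d6 : 6 ≤ d
  altOut : ∀ x, Induces (stabilizer G x) {y | R x y}
  altIn : ∀ x, Induces (stabilizer G x) {y | R y x}
  keq : ∀ x, (Qi R x : Subgroup G) = Qi (Op R) x
  ne : ∀ x, (Qi R x : Subgroup G) ≠ ⊥

variable {R : Ω → Ω → Prop} {d : ℕ}

theorem symHyp_of (h : WData G R) (hout : ∀ x, Nat.card {y // R x y} = d)
    (hin : ∀ x, Nat.card {y // R y x} = d) (h6 : 6 ≤ d)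
    (halt : ∀ x, Induces (stabilizer G x) {y | R x y})
    (hne : ∀ x, (Qi (Op R) x : Subgroup G) ≠ ⊥) : SymHyp G R d := by
  have hin' := alt_in h hout hin h6 halt
  have hk : ∀ x, (Qi R x : Subgroup G) = Qi (Op R) x := fun x =>
    le_antisymm (key_le h hout hin h6 halt x) (key_le h.op hin hout h6 hin' x)
  exact
    { wd := h, out := hout, inn := hin, d6 := h6, altOut := halt, altIn := hin', keq := hk,
      ne := fun x => by rw [hk]; exact hne x }

namespace SymHyp

variable (h : SymHyp G R d)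
include h

theorem op : SymHyp G (Op R) d where
  wd := h.wd.op
  out := h.inn
  inn := h.out
  d6 := h.d6
  altOut := h.altIn
  altIn := h.altOut
  keq x := (h.keq x).symm
  ne x := by rw [← h.keq]; exact h.ne x

theorem mem_K_out {x : Ω} {g : G} : g ∈ (Qi R x : Subgroup G) ↔ g • x = x ∧ ∀ y, R x y → g • y = y := by
  rw [h.keq]; exact mem_Qi_op

theorem K_le_stab_out {x y : Ω} (hr : R x y) : (Qi R x : Subgroup G) ≤ stabilizer G y :=
  fun _ hg => (h.mem_K_out.mp hg).2 y hr

theorem K_norm {x : Ω} {m k : G} (hm : m ∈ stabilizer G x) (hk : k ∈ (Qi R x : Subgroup G)) :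
    m * k * m⁻¹ ∈ (Qi R x : Subgroup G) :=
  (mem_normalizer_iff.mp (h.wd.stab_le_normalizer_Qi x hm) k).mp hk

theorem conj_mem_K (g : G) {c : Ω} {k : G} (hk : k ∈ (Qi R c : Subgroup G)) :
    g * k * g⁻¹ ∈ (Qi R (g • c) : Subgroup G) := by
  rw [← h.wd.Qi_conj, mem_conj]
  simpa [mul_assoc] using hk

theorem card_K (x y : Ω) : Nat.card (Qi R x : Subgroup G) = Nat.card (Qi R y : Subgroup G) := by
  obtain ⟨g, rfl⟩ := h.wd.exists_smul x y
  rw [← h.wd.Qi_conj, card_conj]

theorem not_le_of_arc {x y : Ω} (hr : R x y) : ¬ (Qi R x : Subgroup G) ≤ Qi R y := by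
  intro hle
  have e : (Qi R x : Subgroup G) = Qi R y :=
    Subgroup.eq_of_le_of_card_ge hle (h.card_K y x).le
  apply h.ne x
  refine h.wd.eq_bot_of_both hr (Qi_le_stab x) (h.wd.stab_le_normalizer_Qi x) ?_
  rw [e]
  exact h.wd.stab_le_normalizer_Qi y

theorem not_le_of_arc' {x y : Ω} (hr : R x y) : ¬ (Qi R y : Subgroup G) ≤ Qi R x := by
  intro hle
  have e : (Qi R y : Subgroup G) = Qi R x :=
    Subgroup.eq_of_le_of_card_ge hle (h.card_K x y).le
  apply h.not_le_of_arc hr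
  rw [e]

theorem card_delOut {x y : Ω} (hr : R x y) : Nat.card (Del {c | R x c} y) + 1 = d := by
  have := card_Del (P := {c | R x c}) (y := y) hr
  rw [this]
  exact h.out x

theorem card_delIn {x y : Ω} (hr : R x y) : Nat.card (Del {c | R c y} x) + 1 = d := by
  have := card_Del (P := {c | R c y}) (y := x) hr
  rw [this]
  exact h.inn y

theorem five_delOut {x y : Ω} (hr : R x y) : 5 ≤ Nat.card (Del {c | R x c} y) := by
  have := h.card_delOut hr
  have := h.d6
  omega

theorem five_delIn {x y : Ω} (hr : R x y) : 5 ≤ Nat.card (Del {c | R c y} x) := by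
  have := h.card_delIn hr
  have := h.d6
  omega

/-- The cover lemma on `Out x ∖ {y}`. -/
theorem cover {x y : Ω} (hr : R x y) {N : Subgroup G} (hNx : N ≤ stabilizer G x)
    (hNy : N ≤ stabilizer G y)
    (hn : ∀ m, m ∈ stabilizer G x → m ∈ stabilizer G y → ∀ s ∈ N, m * s * m⁻¹ ∈ N)
    (hnot : ¬ N ≤ Qi R x) : Induces N (Del {c | R x c} y) := by
  have hM : Pres (stabilizer G x ⊓ stabilizer G y) (Del {c | R x c} y) :=
    pres_del h.wd inf_le_left inf_le_right
  have hind : Induces (stabilizer G x ⊓ stabilizer G y) (Del {c | R x c} y) :=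
    (h.altOut x).del hr
  rcases fixes_or_induces (h.five_delOut hr) (pres_del h.wd hNx hNy) hM hind
    (fun m hm s hs => hn m (mem_inf.mp hm).1 (mem_inf.mp hm).2 s hs) with hf | hi
  · exfalso
    apply hnot
    intro g hg
    rw [h.mem_K_out]
    refine ⟨hNx hg, fun z hz => ?_⟩
    by_cases hzy : z = y
    · rw [hzy]; exact hNy hg
    · exact (mem_fixingSubgroup_iff G).mp (hf hg) z ⟨hz, hzy⟩
  · exact hi

/-- The cover lemma on `In y ∖ {x}`. -/
theorem cover' {x y : Ω} (hr : R x y) {N : Subgroup G} (hNx : N ≤ stabilizer G x)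
    (hNy : N ≤ stabilizer G y)
    (hn : ∀ m, m ∈ stabilizer G x → m ∈ stabilizer G y → ∀ s ∈ N, m * s * m⁻¹ ∈ N)
    (hnot : ¬ N ≤ Qi R y) : Induces N (Del {c | R c y} x) := by
  refine h.op.cover (x := y) (y := x) hr hNy hNx (fun m h1 h2 => hn m h2 h1) ?_
  rwa [← h.keq]

/-- The set `In c ∖ {a}`. -/
def Qf (R : Ω → Ω → Prop) (a c : Ω) : Set Ω := Del {z | R z c} a

theorem mem_K_iff_fix {a c : Ω} (hr : R a c) {g : G} (hg : g ∈ (Qi R a : Subgroup G)) :
    g ∈ (Qi R c : Subgroup G) ↔ g ∈ fixingSubgroup G (Qf R a c) := by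
  constructor
  · intro hc
    rw [mem_fixingSubgroup_iff]
    intro z hz
    exact (mem_Qi.mp hc).2 z hz.1
  · intro hc
    rw [mem_Qi]
    refine ⟨h.K_le_stab_out hr hg, fun z hz => ?_⟩
    by_cases hza : z = a
    · rw [hza]; exact (mem_Qi.mp hg).1
    · exact (mem_fixingSubgroup_iff G).mp hc z ⟨hz, hza⟩

theorem pres_Qf {a c : Ω} (hr : R a c) {N : Subgroup G} (hN : N ≤ (Qi R a : Subgroup G)) :
    Pres N (Qf R a c) :=
  pres_del h.wd.op (hN.trans (h.K_le_stab_out hr)) (hN.trans (Qi_le_stab a))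

/-- The subgroup `K_a ∩ K_c`. -/
def Qc (R : Ω → Ω → Prop) (a c : Ω) : Subgroup G := Qi R a ⊓ Qi R c

omit h in
theorem Qc_def (a c : Ω) : (Qc R a c : Subgroup G) = Qi R a ⊓ Qi R c := rfl

theorem inf_fix_eq {a c : Ω} (hr : R a c) :
    (Qi R a : Subgroup G) ⊓ fixingSubgroup G (Qf R a c) = Qc R a c := by
  ext g
  rw [Qc_def, mem_inf, mem_inf]
  exact and_congr_right fun hg => (h.mem_K_iff_fix hr hg).symm

theorem Qc_conj {a : Ω} {g : G} (hg : g ∈ stabilizer G a) (c : Ω) :
    MulAut.conj g • (Qc R a c : Subgroup G) = Qc R a (g • c) := by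
  ext x
  rw [mem_conj, Qc_def, Qc_def, mem_inf, mem_inf]
  have h1 : (x ∈ (Qi R a : Subgroup G)) ↔ g⁻¹ * x * g ∈ (Qi R a : Subgroup G) := by
    constructor
    · intro hx
      have := h.K_norm (inv_mem hg) hx
      simpa using this
    · intro hx
      have := h.K_norm hg hx
      have e : g * (g⁻¹ * x * g) * g⁻¹ = x := by group
      rwa [e] at this
  have h2 : (x ∈ (Qi R (g • c) : Subgroup G)) ↔ g⁻¹ * x * g ∈ (Qi R c : Subgroup G) := by
    rw [← h.wd.Qi_conj, mem_conj]
  rw [h1, h2]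

theorem card_Qc {a c c' : Ω} (hc : R a c) (hc' : R a c') :
    Nat.card (Qc R a c : Subgroup G) = Nat.card (Qc R a c' : Subgroup G) := by
  have h3 : 3 ≤ Nat.card ({y | R a y} : Set Ω) := by
    have : Nat.card ({y | R a y} : Set Ω) = d := h.out a
    have := h.d6
    omega
  obtain ⟨g, hg, e⟩ := (h.altOut a).exists_smul h3 hc hc'
  rw [← e, ← h.Qc_conj hg, card_conj]

/-- Either all `K_a ∩ K_c` coincide, or they are pairwise distinct. -/
theorem dichotomy (a : Ω) :
    (∀ c c', R a c → R a c' → (Qc R a c : Subgroup G) = Qc R a c') ∨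
    (∀ c c', R a c → R a c' → c ≠ c' → (Qc R a c : Subgroup G) ≠ Qc R a c') := by
  by_cases hex : ∃ c₁ c₂, R a c₁ ∧ R a c₂ ∧ c₁ ≠ c₂ ∧ (Qc R a c₁ : Subgroup G) = Qc R a c₂
  · left
    obtain ⟨c₁, c₂, h1, h2, h12, e⟩ := hex
    intro c c' hc hc'
    by_cases hcc : c = c'
    · rw [hcc]
    have h4 : 4 ≤ Nat.card ({y | R a y} : Set Ω) := by
      have : Nat.card ({y | R a y} : Set Ω) = d := h.out a
      have := h.d6
      omega
    obtain ⟨g, hg, e1, e2⟩ := (h.altOut a).exists_smul₂ h4 h1 h2 hc hc' h12 hcc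
    rw [← e1, ← e2, ← h.Qc_conj hg, ← h.Qc_conj hg, e]
  · right
    intro c c' hc hc' hne e
    exact hex ⟨c, c', hc, hc', hne, e⟩

/-! ### Solvable case -/

theorem Ko_le_K {a b y : Ω} (hab : R a b) (hyb : R y b) {p : ℕ} [Fact p.Prime]
    (hP : IsPGroup p (Ko R a : Subgroup G)) : (Ko R a : Subgroup G) ≤ Qi R y := by
  set P : Set Ω := Del {c | R y c} b with hPdef
  have h5 := h.five_delOut hyb
  have hKb : (Qi R b : Subgroup G) ≤ stabilizer G a := Qi_le_stab' hab
  have hKy : (Qi R b : Subgroup G) ≤ stabilizer G y := Qi_le_stab' hyb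
  have hKbP : Pres (Qi R b : Subgroup G) P := pres_del h.wd hKy (Qi_le_stab b)
  have hKbI : Induces (Qi R b : Subgroup G) P :=
    h.cover hyb hKy (Qi_le_stab b) (fun m _ hm s hs => h.K_norm hm hs) (h.not_le_of_arc' hyb)
  have hKoQ : (Ko R a : Subgroup G) ≤ Qc R a b := by
    apply le_inf
    · intro g hg
      rw [h.mem_K_out]
      exact ⟨h.wd.Ko_le_stab a hg, fun z hz => (mem_Qi.mp (Ko_le_Qi hz hg)).1⟩
    · exact Ko_le_Qi hab
  have hQK : (Qc R a b : Subgroup G) ≤ Qi R b := inf_le_right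
  have hQP : Pres (Qc R a b : Subgroup G) P := hKbP.mono hQK
  have hfix : (Ko R a : Subgroup G) ≤ fixingSubgroup G P := by
    rcases fixes_or_induces h5 hQP hKbP hKbI (fun m hm s hs => by
        have hs' := mem_inf.mp hs
        exact mem_inf.mpr ⟨h.K_norm (hKb hm) hs'.1, h.K_norm (Qi_le_stab b hm) hs'.2⟩) with hf | hi
    · exact hKoQ.trans hf
    · rcases fixes_or_induces h5 (hQP.mono hKoQ) hQP hi (fun m hm s hs =>
          (mem_normalizer_iff.mp (h.wd.stab_le_normalizer_Ko a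
            ((inf_le_left.trans (Qi_le_stab a)) hm)) s).mp hs) with hf | hi'
      · exact hf
      · exact (hi'.not_isPGroup h5 (hQP.mono hKoQ) hP).elim
  intro g hg
  rw [h.mem_K_out]
  have hgb := hQK (hKoQ hg)
  refine ⟨(mem_Qi.mp hgb).2 y hyb, fun z hz => ?_⟩
  by_cases hzb : z = b
  · rw [hzb]; exact (mem_Qi.mp hgb).1
  · exact (mem_fixingSubgroup_iff G).mp (hfix hg) z ⟨hz, hzb⟩

theorem Ko_eq_bot_of_p {a b : Ω} (hab : R a b) {p : ℕ} [Fact p.Prime]
    (h1 : IsPGroup p (Ko R a : Subgroup G)) (h2 : IsPGroup p (Ko (Op R) b : Subgroup G)) :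
    (Ko R a : Subgroup G) = ⊥ := by
  have hle1 : (Ko R a : Subgroup G) ≤ Ko (Op R) b := by
    intro g hg
    rw [mem_Ko]
    intro c hc
    rw [← h.keq]
    exact h.Ko_le_K hab hc h1 hg
  have hle2 : (Ko (Op R) b : Subgroup G) ≤ Ko R a := by
    intro g hg
    rw [mem_Ko]
    intro c hc
    have := h.op.Ko_le_K (a := b) (b := a) (y := c) hab hc h2 hg
    rwa [← h.keq] at this
  have e := le_antisymm hle1 hle2
  refine h.wd.eq_bot_of_both hab (h.wd.Ko_le_stab a) (h.wd.stab_le_normalizer_Ko a) ?_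
  rw [e]
  exact h.wd.op.stab_le_normalizer_Ko b

/-! ### The distinct case: independence -/

theorem hind_of_dist {a : Ω}
    (hd : ∀ c c', R a c → R a c' → c ≠ c' → (Qc R a c : Subgroup G) ≠ Qc R a c')
    (c c' : {c // R a c}) (hne : c ≠ c') :
    Induces ((Qi R a : Subgroup G) ⊓ fixingSubgroup G (Qf R a c.1)) (Qf R a c'.1) := by
  rw [h.inf_fix_eq c.2]
  have hne' : c.1 ≠ c'.1 := fun e => hne (Subtype.ext e)
  have hKP : Pres (Qi R a : Subgroup G) (Qf R a c'.1) := h.pres_Qf c'.2 le_rfl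
  have hKI : Induces (Qi R a : Subgroup G) (Qf R a c'.1) :=
    h.cover' c'.2 (Qi_le_stab a) (h.K_le_stab_out c'.2) (fun m hm _ s hs => h.K_norm hm hs)
      (h.not_le_of_arc c'.2)
  rcases fixes_or_induces (h.five_delIn c'.2) (hKP.mono (inf_le_left : (Qc R a c.1 : Subgroup G) ≤ _))
    hKP hKI (fun m hm s hs => by
      have hs' := mem_inf.mp hs
      refine mem_inf.mpr ⟨h.K_norm (Qi_le_stab a hm) hs'.1, ?_⟩
      exact h.K_norm (h.K_le_stab_out c.2 hm) hs'.2) with hf | hi
  · exfalso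
    have hle : (Qc R a c.1 : Subgroup G) ≤ Qc R a c'.1 := by
      intro g hg
      have hg' := mem_inf.mp hg
      exact mem_inf.mpr ⟨hg'.1, (h.mem_K_iff_fix c'.2 hg'.1).mpr (hf hg)⟩
    exact hd c.1 c'.1 c.2 c'.2 hne' (Subgroup.eq_of_le_of_card_ge hle (h.card_Qc c'.2 c.2).le)
  · exact hi

/-- Independence for the `Qf`. -/
theorem indep_K {a : Ω}
    (hd : ∀ c c', R a c → R a c' → c ≠ c' → (Qc R a c : Subgroup G) ≠ Qc R a c')
    {Y : Subgroup G} (hYK : Y ≤ (Qi R a : Subgroup G))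
    (hn : ∀ k ∈ (Qi R a : Subgroup G), ∀ y ∈ Y, k * y * k⁻¹ ∈ Y)
    (hYi : ∀ c : {c // R a c}, Induces Y (Qf R a c.1)) (s : Finset {c // R a c})
    (k : {c // R a c}) (hk : k ∉ s) :
    Induces (Zf Y (fun c : {c // R a c} => Qf R a c.1) s) (Qf R a k.1) := by
  classical
  exact Chain.indep (fun c : {c // R a c} => Qf R a c.1) (K₀ := Qi R a)
    (fun c => h.pres_Qf c.2 le_rfl) (fun c => h.five_delIn c.2)
    (fun c c' hne => h.hind_of_dist hd c c' hne) hYK hn hYi s k hk

omit h in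
theorem arith {d m : ℕ} (h6 : 6 ≤ d) (hm : 2 * m = (d - 1)!) (hle : m ^ d ≤ (2 * m) ^ (d - 1)) :
    False := by
  obtain ⟨e, rfl⟩ : ∃ e, d = e + 1 := ⟨d - 1, by omega⟩
  have h2 := two_pow_lt_factorial (e + 1) h6
  simp only [Nat.add_sub_cancel] at *
  have hmpos : 0 < m := by
    have := Nat.factorial_pos e
    omega
  rw [mul_pow, pow_succ, mul_comm (2 ^ e)] at hle
  have h3 : m ≤ 2 ^ e := Nat.le_of_mul_le_mul_left hle (pow_pos hmpos e)
  rw [pow_succ] at h2
  omega

/-- `Ko(Op R) x` lies in `K_x`. -/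
theorem Ko_op_le_K (x : Ω) : (Ko (Op R) x : Subgroup G) ≤ Qi R x := by
  intro g hg
  rw [mem_Qi]
  exact ⟨h.wd.op.Ko_le_stab x hg, fun z hz => (mem_Qi.mp (Ko_le_Qi (R := Op R) hz hg)).1⟩

theorem Ko_le_K_self (x : Ω) : (Ko R x : Subgroup G) ≤ Qi R x := by
  have := h.op.Ko_op_le_K x
  rwa [← h.keq] at this

/-- **`Ko R a = 1` implies `Ko (Op R) b = 1`.** -/
theorem Ko_op_bot {a b : Ω} (hab : R a b) (hbot : (Ko R a : Subgroup G) = ⊥) :
    (Ko (Op R) b : Subgroup G) = ⊥ := by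
  classical
  by_contra hne
  have hKobQ : (Ko (Op R) b : Subgroup G) ≤ Qc R a b := by
    apply le_inf
    · have : (Ko (Op R) b : Subgroup G) ≤ Qi (Op R) a := Ko_le_Qi (R := Op R) (x := b) (c := a) hab
      rwa [← h.keq] at this
    · exact h.Ko_op_le_K b
  rcases h.dichotomy a with hall | hd
  · apply hne
    rw [eq_bot_iff]
    refine hKobQ.trans ?_
    rw [← hbot]
    intro g hg
    rw [mem_Ko]
    intro c hc
    have : g ∈ (Qc R a c : Subgroup G) := by rw [hall c b hc hab]; exact hg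
    exact (mem_inf.mp this).2
  · set Y : Subgroup G := Ko (Op R) a with hY
    have hYK : Y ≤ (Qi R a : Subgroup G) := h.Ko_op_le_K a
    have hYcard : Nat.card Y = Nat.card (Ko (Op R) b : Subgroup G) := by
      obtain ⟨g, hg⟩ := h.wd.exists_smul b a
      rw [hY, ← hg, ← h.wd.op.Ko_conj, card_conj]
    have hYne : Y ≠ ⊥ := by
      intro e
      apply hne
      have : Nat.card (Ko (Op R) b : Subgroup G) = 1 := by
        rw [← hYcard, e]; simp
      exact (Subgroup.eq_bot_iff_card _).mpr this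
    have hnY : ∀ m ∈ stabilizer G a, ∀ s ∈ Y, m * s * m⁻¹ ∈ Y := fun m hm s hs =>
      (mem_normalizer_iff.mp (h.wd.op.stab_le_normalizer_Ko a hm) s).mp hs
    have hnotle : ∀ c, R a c → ¬ Y ≤ Qi R c := by
      intro c₀ hc₀ hle
      apply hYne
      rw [eq_bot_iff, ← hbot]
      intro g hg
      rw [mem_Ko]
      intro c hc
      have h3 : 3 ≤ Nat.card ({y | R a y} : Set Ω) := by
        have : Nat.card ({y | R a y} : Set Ω) = d := h.out a
        have := h.d6
        omega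
      obtain ⟨k, hk, e⟩ := (h.altOut a).exists_smul h3 hc₀ hc
      have h1 : k⁻¹ * g * k⁻¹⁻¹ ∈ Y := hnY _ (inv_mem hk) _ hg
      have h2 := h.conj_mem_K k (hle h1)
      rw [e] at h2
      have e' : k * (k⁻¹ * g * k⁻¹⁻¹) * k⁻¹ = g := by group
      rwa [e'] at h2
    have hYi : ∀ c : {c // R a c}, Induces Y (Qf R a c.1) := fun c =>
      h.cover' c.2 (hYK.trans (Qi_le_stab a)) (hYK.trans (h.K_le_stab_out c.2))
        (fun m hm _ s hs => hnY m hm s hs) (hnotle c.1 c.2)
    have hind := h.indep_K hd hYK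
      (fun k hk y hy => hnY k (Qi_le_stab a hk) y hy) hYi
    letI : Fintype {c // R a c} := Fintype.ofFinite _
    let Q : {c // R a c} → Set Ω := fun c => Qf R a c.1
    have hlow := card_lower (G := G) Q (K₀ := (Qi R a : Subgroup G)) (fun c => h.pres_Qf c.2 le_rfl) hYK Finset.univ hind
    set b' : {c // R a c} := ⟨b, hab⟩ with hb'
    have hup := card_upper (G := G) Q (Y := (Qc R a b : Subgroup G)) (Finset.univ.erase b')
      (fun c _ => h.pres_Qf c.2 inf_le_left)
    have hZbot : Zf (Qc R a b : Subgroup G) Q (Finset.univ.erase b') = ⊥ := by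
      rw [eq_bot_iff, ← hbot]
      intro g hg
      rw [mem_Zf] at hg
      have hg1 := mem_inf.mp hg.1
      rw [mem_Ko]
      intro c hc
      by_cases hcb : c = b
      · rw [hcb]; exact hg1.2
      · refine (h.mem_K_iff_fix hc hg1.1).mpr (hg.2 ⟨c, hc⟩ ?_)
        refine Finset.mem_erase.mpr ⟨fun e => hcb (congrArg Subtype.val e), Finset.mem_univ _⟩
    rw [hZbot] at hup
    have hcardι : Fintype.card {c // R a c} = d := by
      rw [← Nat.card_eq_fintype_card]; exact h.out a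
    have hfac : ∀ c : {c // R a c}, (Nat.card (Q c))! = (d - 1)! := by
      intro c
      have := h.card_delIn c.2
      have e : Nat.card (Q c) = d - 1 := by
        change Nat.card (Del {z | R z c.1} a) = d - 1
        omega
      rw [e]
    have halt2 : ∀ c : {c // R a c}, 2 * Nat.card (Alt (Q c)) = (d - 1)! := by
      intro c
      have h5 := h.five_delIn c.2
      have := card_Alt (P := Q c) (by change 2 ≤ Nat.card (Del {z | R z c.1} a); omega)
      rw [this, hfac]
    obtain ⟨m, hm⟩ : ∃ m, 2 * m = (d - 1)! := ⟨_, halt2 b'⟩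
    have hmc : ∀ c : {c // R a c}, Nat.card (Alt (Q c)) = m := by
      intro c
      have := halt2 c
      omega
    have e1 : ∏ i ∈ (Finset.univ : Finset {c // R a c}), Nat.card (Alt (Q i)) = m ^ d := by
      rw [Finset.prod_congr rfl (fun c _ => hmc c), Finset.prod_const, Finset.card_univ, hcardι]
    have e2 : ∏ i ∈ (Finset.univ.erase b'), (Nat.card (Q i))! = (2 * m) ^ (d - 1) := by
      rw [Finset.prod_congr rfl (fun c _ => hfac c), Finset.prod_const, Finset.card_erase_of_mem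
        (Finset.mem_univ _), Finset.card_univ, hcardι, hm]
    rw [e1] at hlow
    rw [e2] at hup
    have hZpos : 0 < Nat.card (Zf Y Q Finset.univ) := Nat.card_pos
    have hbotc : Nat.card (⊥ : Subgroup G) = 1 := by simp
    rw [hbotc, mul_one] at hup
    have h1 : m ^ d ≤ Nat.card Y := le_trans (Nat.le_mul_of_pos_right _ hZpos) hlow
    have h2 : Nat.card Y ≤ Nat.card (Qc R a b : Subgroup G) := by
      rw [hYcard]
      exact Nat.card_mono (Set.toFinite _) hKobQ
    exact arith h.d6 hm (h1.trans (h2.trans hup))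

/-- **Both second kernels are trivial.** -/
theorem both_bot {a b : Ω} (hab : R a b) :
    (Ko R a : Subgroup G) = ⊥ ∧ (Ko (Op R) b : Subgroup G) = ⊥ := by
  by_cases h1 : (Ko R a : Subgroup G) = ⊥
  · exact ⟨h1, h.Ko_op_bot hab h1⟩
  · by_cases h2 : (Ko (Op R) b : Subgroup G) = ⊥
    · exact ⟨h.op.Ko_op_bot (a := b) (b := a) hab h2, h2⟩
    · exfalso
      obtain ⟨p, hp, hp1, hp2⟩ := tw h.wd hab h1 h2
      haveI : Fact p.Prime := ⟨hp⟩
      exact h1 (h.Ko_eq_bot_of_p hab hp1 hp2)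

/-- **The main intersection theorem.** -/
theorem Q_bot {a b : Ω} (hab : R a b) : (Qi R a : Subgroup G) ⊓ Qi R b = ⊥ := by
  classical
  obtain ⟨hK1, hK2⟩ := h.both_bot hab
  rcases h.dichotomy a with hall | hd
  · rw [eq_bot_iff, ← hK1]
    intro g hg
    rw [mem_Ko]
    intro c hc
    have : g ∈ (Qc R a c : Subgroup G) := by rw [hall c b hc hab]; exact hg
    exact (mem_inf.mp this).2
  · exfalso
    have hcP := h.card_delOut hab
    have h1 : 1 < Nat.card (Del {c | R a c} b) := by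
      have := h.d6
      omega
    haveI := Finite.one_lt_card_iff_nontrivial.mp h1
    obtain ⟨⟨c₂, hc₂⟩, ⟨c₃, hc₃⟩, hne⟩ := exists_pair_ne (Del {c | R a c} b)
    have hne' : c₂ ≠ c₃ := fun e => hne (Subtype.ext e)
    have hc₂a : R a c₂ := hc₂.1
    letI : Fintype {c // R a c} := Fintype.ofFinite _
    let Q : {c // R a c} → Set Ω := fun c => Qf R a c.1
    let k₂ : {c // R a c} := ⟨c₂, hc₂a⟩
    let F : Subgroup G := Zf (Qi R a) Q (Finset.univ.erase k₂)
    have hFK : F ≤ Qi R a := Zf_le _ _ _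
    have hKi : ∀ c : {c // R a c}, Induces (Qi R a : Subgroup G) (Qf R a c.1) := fun c =>
      h.cover' c.2 (Qi_le_stab a) (h.K_le_stab_out c.2) (fun m hm _ s hs => h.K_norm hm hs)
        (h.not_le_of_arc c.2)
    have hKn : ∀ k ∈ (Qi R a : Subgroup G), ∀ y ∈ (Qi R a : Subgroup G), k * y * k⁻¹ ∈ (Qi R a : Subgroup G) :=
      fun k hk y hy => h.K_norm (Qi_le_stab a hk) hy
    have hFi : Induces F (Qf R a c₂) :=
      h.indep_K hd le_rfl hKn hKi _ k₂ (by simp)
    have hFne : F ≠ ⊥ := hFi.ne_bot (h.five_delIn hc₂a)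
    have hFn : ∀ k ∈ (Qi R a : Subgroup G), ∀ y ∈ F, k * y * k⁻¹ ∈ F :=
      Zf_normal (K₀ := (Qi R a : Subgroup G)) (fun c => h.pres_Qf c.2 le_rfl) hKn _
    have hFmem : ∀ g ∈ F, ∀ c, R a c → c ≠ c₂ → g ∈ (Qi R c : Subgroup G) := by
      intro g hg c hc hcne
      refine (h.mem_K_iff_fix hc (hFK hg)).mpr ((mem_Zf.mp hg).2 ⟨c, hc⟩ ?_)
      exact Finset.mem_erase.mpr ⟨fun e => hcne (congrArg Subtype.val e), Finset.mem_univ _⟩
    have hbc₂ : b ≠ c₂ := fun e => hc₂.2 e.symm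
    have hFb : F ≤ Qi R b := fun g hg => hFmem g hg b hab hbc₂
    have hFQ : F ≤ Qc R a b := le_inf hFK hFb
    -- the moving element
    have hKbOut : Induces (Qi R b : Subgroup G) (Del {c | R a c} b) :=
      h.cover hab (Qi_le_stab' hab) (Qi_le_stab b) (fun m _ hm s hs => h.K_norm hm hs)
        (h.not_le_of_arc' hab)
    obtain ⟨x, hx, hxc⟩ := hKbOut.exists_smul (by have := h.d6; omega) hc₂ hc₃
    have hxa : x ∈ stabilizer G a := Qi_le_stab' hab hx
    let F' : Subgroup G := MulAut.conj x • F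
    have hcomm : ∀ g ∈ F, ∀ g' ∈ F', g * g' = g' * g := by
      intro g hg g' hg'
      have hg'F : x⁻¹ * g' * x ∈ F := mem_conj.mp hg'
      have hg'K : g' ∈ (Qi R a : Subgroup G) := by
        have := h.K_norm hxa (hFK hg'F)
        have e : x * (x⁻¹ * g' * x) * x⁻¹ = g' := by group
        rwa [e] at this
      have hgK' : x⁻¹ * g * x ∈ (Qi R a : Subgroup G) := by
        have := h.K_norm (inv_mem hxa) (hFK hg)
        simpa using this
      have hu1 : g * g' * g⁻¹ * g'⁻¹ ∈ F := by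
        have h2 := hFn g' hg'K _ (inv_mem hg)
        have h3 := mul_mem hg h2
        have e : g * (g' * g⁻¹ * g'⁻¹) = g * g' * g⁻¹ * g'⁻¹ := by group
        rwa [e] at h3
      have hu2 : x⁻¹ * (g * g' * g⁻¹ * g'⁻¹) * x ∈ F := by
        have h2 := hFn _ hgK' _ hg'F
        have h3 := mul_mem h2 (inv_mem hg'F)
        have e : x⁻¹ * g * x * (x⁻¹ * g' * x) * (x⁻¹ * g * x)⁻¹ * (x⁻¹ * g' * x)⁻¹ =
            x⁻¹ * (g * g' * g⁻¹ * g'⁻¹) * x := by group
        rwa [e] at h3
      have hu : g * g' * g⁻¹ * g'⁻¹ ∈ (Ko R a : Subgroup G) := by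
        rw [mem_Ko]
        intro c hc
        by_cases hcc : c = c₂
        · rw [hcc]
          have hxinv : x⁻¹ • c₂ ≠ c₂ := by
            intro e
            apply hne'
            rw [← hxc]
            have e2 : x • (x⁻¹ • c₂) = x • c₂ := by rw [e]
            rw [smul_inv_smul] at e2
            exact e2
          have hra : R a (x⁻¹ • c₂) := by
            have := h.wd.inv x⁻¹ hc₂a
            rwa [show x⁻¹ • a = a from inv_mem hxa] at this
          have h5 := hFmem _ hu2 _ hra hxinv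
          have h6 := h.conj_mem_K x h5
          rw [smul_inv_smul] at h6
          have e : x * (x⁻¹ * (g * g' * g⁻¹ * g'⁻¹) * x) * x⁻¹ = g * g' * g⁻¹ * g'⁻¹ := by group
          rwa [e] at h6
        · exact hFmem _ hu1 c hc hcc
      rw [hK1, mem_bot] at hu
      have h7 := mul_inv_eq_one.mp hu
      exact mul_inv_eq_iff_eq_mul.mp h7
    -- a vertex detecting F
    have hex : ∃ y, R y b ∧ ¬ F ≤ Qi R y := by
      by_contra hcon
      push Not at hcon
      apply hFne
      rw [eq_bot_iff, ← hK2]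
      intro g hg
      rw [mem_Ko]
      intro c hc
      rw [← h.keq]
      exact hcon c hc hg
    obtain ⟨y, hyb, hFy⟩ := hex
    set P : Set Ω := Del {c | R y c} b with hPdef
    have h5 : 5 ≤ Nat.card P := h.five_delOut hyb
    have hKbP : Pres (Qi R b : Subgroup G) P := pres_del h.wd (Qi_le_stab' hyb) (Qi_le_stab b)
    have hKbI : Induces (Qi R b : Subgroup G) P :=
      h.cover hyb (Qi_le_stab' hyb) (Qi_le_stab b) (fun m _ hm s hs => h.K_norm hm hs)
        (h.not_le_of_arc' hyb)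
    have hnf : ¬ F ≤ fixingSubgroup G P := by
      intro hf
      apply hFy
      intro g hg
      rw [h.mem_K_out]
      have hgb := hFb hg
      refine ⟨(mem_Qi.mp hgb).2 y hyb, fun z hz => ?_⟩
      by_cases hzb : z = b
      · rw [hzb]; exact (mem_Qi.mp hgb).1
      · exact (mem_fixingSubgroup_iff G).mp (hf hg) z ⟨hz, hzb⟩
    have hQPres : Pres (Qc R a b : Subgroup G) P := hKbP.mono inf_le_right
    have hQI : Induces (Qc R a b : Subgroup G) P := by
      rcases fixes_or_induces h5 hQPres hKbP hKbI (fun m hm s hs => by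
          have hs' := mem_inf.mp hs
          exact mem_inf.mpr ⟨h.K_norm (Qi_le_stab' hab hm) hs'.1, h.K_norm (Qi_le_stab b hm) hs'.2⟩)
        with hf | hi
      · exact (hnf (hFQ.trans hf)).elim
      · exact hi
    have hFI : Induces F P := by
      rcases fixes_or_induces h5 (hQPres.mono hFQ) hQPres hQI (fun m hm s hs =>
          hFn m (mem_inf.mp hm).1 s hs) with hf | hi
      · exact (hnf hf).elim
      · exact hi
    have hF'I : Induces F' P := hFI.conj hKbP hx
    obtain ⟨n, hn, m, hm, z, -, hz⟩ := exists_not_comm h5 hFI hF'I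
    exact hz (by rw [hcomm n hn m hm])

end SymHyp

end Cfsg.Agent.Lib.Knapp.Two
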